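import Cfsg.Agent.H71.QE.Val
import Cfsg.Agent.H307.QE.Par

/-!
# S4547, task QE7 (helper71): the exceptional cases of `PSL_3(F)`, `F` of characteristic two

* `gInv3_cube` : if `x φ(x)` is always a cube;
* `exists_zeta` : a character of order three of `Fˣ`.
-/

set_option autoImplicit false
set_option linter.unusedSectionVars false

open scoped ComplexConjugate

namespace Cfsg.Agent.H71.QE

open Cfsg Matrix CoxeterSystem Cfsg.Agent.ChevalleyStructure.CoxeterGeom Cfsg.Agent.Tits.Roots Cfsg.Agent.Tits.Core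
open Cfsg.Agent.Nodes Cfsg.Agent.Nodes.BNOf Cfsg.Agent.Nodes.RGDLib Cfsg.Agent.Nodes.RootsA
  Cfsg.Agent.Nodes.Bruhat
open Cfsg.Agent.LieRecognition.BNCox (cA)
open Cfsg.Agent.Characters Cfsg.Agent.H726.Four Cfsg.Agent.H967.K4 Cfsg.Agent.OddOrderCharacters.Clifford
open Cfsg.Agent.H183.OutPSL (fldGL itrGL fld_mul_cj itr_mul_cj lift_cj_toGL)
open Cfsg.Agent.ClassicalGeometry.AutPSL.Root Cfsg.Agent.ClassicalGeometry.AutPSL.Auto
open Cfsg.Agent.H307.QE Cfsg.Agent.H821.K547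

universe u

section

variable {G : Type u} [Group G]

theorem os_twist {β δ : MulAut G} {t : G} (h : δ * β = MulAut.conj t * (β * δ)) {χ : G → ℂ} (hχ : OS β χ) :
    OS β (χ ∘ δ) where
  odd := by
    refine ⟨Core.isIrr_comp δ.toMonoidHom δ.surjective hχ.odd.1, ?_⟩
    have h1 : charDegree (χ ∘ δ) = charDegree χ := by
      unfold charDegree
      rw [Function.comp_apply, map_one]
    rw [h1]
    exact hχ.odd.2
  sf := SF.comp δ.toMonoidHom hχ.sf
  fix x := by
    have h1 : δ (β x) = t * β (δ x) * t⁻¹ := congrArg (fun a : MulAut G => a x) h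
    rw [Function.comp_apply, h1, Core.isIrr_isClassFunction hχ.odd.1 (β (δ x)) t, hχ.fix]
    rfl

end

section

variable {F : Type u} [Field F]

theorem det_itrGL (A : GL (Fin 3) F) : GeneralLinearGroup.det (itrGL A) = (GeneralLinearGroup.det A)⁻¹ := by
  rw [← map_inv]
  apply Units.ext
  change (((A⁻¹ : GL (Fin 3) F) : Matrix (Fin 3) (Fin 3) F)ᵀ).det = _
  rw [Matrix.det_transpose]
  rfl

theorem det_fldGL (φ : F ≃+* F) (A : GL (Fin 3) F) :
    GeneralLinearGroup.det (fldGL φ A) = Units.map (φ : F →* F) (GeneralLinearGroup.det A) := by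
  apply Units.ext
  change ((A : Matrix (Fin 3) (Fin 3) F).map φ).det = φ (A : Matrix (Fin 3) (Fin 3) F).det
  rw [← RingEquiv.mapMatrix_apply, ← RingEquiv.map_det]

theorem lift_cj_cube [Finite F] [CharP F 2] [Fintype (GL (Fin 3) F)] {M : GL (Fin 3) F} {y : Fˣ} (h : GeneralLinearGroup.det M = y ^ 3) :
    ∃ s : ProjectiveSpecialLinearGroup (Fin 3) F, lift (cj M) = MulAut.conj s := by
  have hdet2 : GeneralLinearGroup.det ((scl y)⁻¹ * M) = 1 := by
    rw [map_mul, map_inv, det_scl, h, inv_mul_cancel]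
  let m : SpecialLinearGroup (Fin 3) F := ⟨((scl y)⁻¹ * M : GL (Fin 3) F), congrArg Units.val hdet2⟩
  have h1 : SpecialLinearGroup.toGL m = (scl y)⁻¹ * M := Units.ext rfl
  have h2 : M = scl y * SpecialLinearGroup.toGL m := by rw [h1, mul_inv_cancel_left]
  have h3 : cj (scl y : GL (Fin 3) F) = 1 := by
    ext g : 1
    apply toGL_injective (n := 2) (F := F)
    rw [toGL_cj, (scl_comm y _).eq, mul_inv_cancel_right]
    rfl
  refine ⟨pr m, ?_⟩
  rw [h2, map_mul, h3, one_mul, lift_cj_toGL]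

variable [Finite F] [CharP F 2]

/-- **The case where `x φ(x)` is always a cube.** -/
theorem gInv3_cube (hT : H601.OddDeg.TwoC (ProjectiveSpecialLinearGroup (Fin 3) F))
    {β : MulAut (ProjectiveSpecialLinearGroup (Fin 3) F)} (hpow : ∃ k : ℕ, β ^ 2 ^ k = 1) {φ : F ≃+* F}
    {A : GL (Fin 3) F} (hβ : β = lift (cj A * fld φ * itr)) {ζ : Fˣ →* ℂˣ} (hζ : ∀ x, ζ x ^ 3 = 1) {x₀ : Fˣ}
    (hx₀ : ζ x₀ ≠ 1) (hφ : ∀ x : Fˣ, ∃ y : Fˣ, x * Units.map (φ : F →* F) x = y ^ 3) : GInv3 β := by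
  have : Finite (SpecialLinearGroup (Fin 3) F) := inferInstance
  have : Finite (ProjectiveSpecialLinearGroup (Fin 3) F) := Quotient.finite _
  have : Fintype (GL (Fin 3) F) := Fintype.ofFinite _
  have : Fintype (ProjectiveSpecialLinearGroup (Fin 3) F) := Fintype.ofFinite _
  have hζφ : ∀ x : Fˣ, ζ (Units.map (φ : F →* F) x) = (ζ x)⁻¹ := by
    intro x
    obtain ⟨y, hy⟩ := hφ x
    rw [eq_inv_iff_mul_eq_one, mul_comm, ← map_mul, hy, map_pow, hζ]
  obtain ⟨Φ, hΦ⟩ := exists_Phi (F := F) ζ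
  obtain ⟨k, hk⟩ := hpow
  obtain ⟨χ, h1, h2⟩ := exists_os_const hk (Phi_isCharacter hΦ) (Phi_one hΦ) odd_index_BG (Phi_sf hΦ)
    (fun x => by rw [hβ]; exact Phi_aut hΦ φ (Or.inr hζφ) A x)
  obtain ⟨E, x, hx⟩ := exists_ne hΦ hζ hx₀ h1.odd.1 h2
  have hd : GeneralLinearGroup.det (E * A * (fldGL φ (itrGL E))⁻¹ * A⁻¹) =
      GeneralLinearGroup.det E * Units.map (φ : F →* F) (GeneralLinearGroup.det E) := by
    rw [map_mul, map_mul, map_mul, map_inv, map_inv, det_fldGL, det_itrGL, map_inv, inv_inv]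
    rw [mul_assoc (GeneralLinearGroup.det E), mul_comm (GeneralLinearGroup.det A), ← mul_assoc, mul_inv_cancel_right]
  obtain ⟨y, hy⟩ := hφ (GeneralLinearGroup.det E)
  obtain ⟨t, ht⟩ := lift_cj_cube (hd.trans hy)
  have hcomm : lift (cj E) * β = MulAut.conj t * (β * lift (cj E)) := by
    have e1 : (cj A * fld φ * itr * cj E : MulAut (SpecialLinearGroup (Fin 3) F)) =
        cj (A * fldGL φ (itrGL E)) * fld φ * itr := by
      rw [mul_assoc, itr_mul_cj, ← mul_assoc, mul_assoc (cj A), fld_mul_cj, ← mul_assoc, ← map_mul]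
    rw [← ht, hβ, ← map_mul, ← map_mul, ← map_mul, e1]
    congr 1
    rw [← mul_assoc, ← mul_assoc, ← mul_assoc, ← mul_assoc, ← map_mul, ← map_mul]
    congr 3
    group
  have h3 := os_twist hcomm h1
  refine GInv3.of_os hT (one_os β) h1 h3 ?_ ?_ ?_
  · rintro h4
    apply hx
    rw [← h4]
    rfl
  · intro h4
    apply hx
    have h5 : ∀ z, χ z = 1 := by
      intro z
      have h6 := congrFun h4 ((lift (cj E))⁻¹ z)
      rw [Function.comp_apply, MulAut.apply_inv_self] at h6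
      exact h6.symm
    rw [h5, h5]
  · intro h4
    exact hx (congrFun h4 x).symm

end

end Cfsg.Agent.H71.QE
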