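import Mathlib

/-!
# S4547, task QE7 (helper71): field automorphisms of 2-power order in characteristic two

* `field_cases` : the case distinction for the automorphism `φ` of `2`-power order of the finite field `F`.
-/

set_option autoImplicit false

namespace Cfsg.Agent.H71.QE

universe u

variable {F : Type u} [Field F]

/-- `φ + 1` -/
def nn (φ : F ≃+* F) (z : F) : F := φ z + z

theorem nn_iter [CharP F 2] (φ : F ≃+* F) (j : ℕ) : ∀ z : F, (nn φ)^[2 ^ j] z = φ^[2 ^ j] z + z := by
  induction j with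
  | zero => intro z; rfl
  | succ j ih =>
    intro z
    have hadd : ∀ (m : ℕ) (a b : F), φ^[m] (a + b) = φ^[m] a + φ^[m] b := fun m => by
      induction m with
      | zero => intro a b; rfl
      | succ m ihm => intro a b; rw [Function.iterate_succ_apply, map_add, ihm]; rfl
    rw [pow_succ, mul_two, Function.iterate_add_apply, ih, ih, Function.iterate_add_apply, hadd]
    linear_combination CharTwo.add_self_eq_zero (φ^[2 ^ j] z)

theorem exists_two_cycle [CharP F 2] (φ : F ≃+* F) (hφ : ∃ k : ℕ, ∀ x, φ^[2 ^ k] x = x) (h1 : ∃ x, φ x ≠ x) :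
    ∃ z : F, φ (φ z) = z ∧ φ z ≠ z := by
  classical
  obtain ⟨k, hk⟩ := hφ
  obtain ⟨z₀, hz₀⟩ := h1
  have hex : ∃ m : ℕ, (nn φ)^[m] z₀ = 0 := ⟨2 ^ k, by rw [nn_iter, hk, CharTwo.add_self_eq_zero]⟩
  have h2 := Nat.find_spec hex
  have h3 : ∀ m < Nat.find hex, (nn φ)^[m] z₀ ≠ 0 := fun m hm => Nat.find_min hex hm
  generalize Nat.find hex = m at h2 h3
  have hz0 : z₀ ≠ 0 := by rintro rfl; exact hz₀ (map_zero φ)
  have hm0 : m ≠ 0 := by rintro rfl; exact hz0 h2
  have hm1 : m ≠ 1 := by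
    rintro rfl
    apply hz₀
    have h4 : φ z₀ + z₀ = 0 := h2
    rw [CharTwo.add_eq_zero] at h4
    exact h4
  obtain ⟨m, rfl⟩ : ∃ j, m = j + 2 := ⟨m - 2, by omega⟩
  refine ⟨(nn φ)^[m] z₀, ?_, ?_⟩
  · rw [Function.iterate_succ_apply', Function.iterate_succ_apply'] at h2
    generalize (nn φ)^[m] z₀ = w at h2
    change φ (φ w + w) + (φ w + w) = 0 at h2
    rw [map_add] at h2
    have h5 : φ (φ w) + w = 0 := by
      linear_combination h2 - CharTwo.add_self_eq_zero (φ w)
    rw [CharTwo.add_eq_zero] at h5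
    exact h5
  · intro h4
    have h5 := h3 (m + 1) (by omega)
    rw [Function.iterate_succ_apply'] at h5
    apply h5
    unfold nn at h4 ⊢
    rw [h4, CharTwo.add_self_eq_zero]

theorem sq_one [CharP F 2] {y : F} (h : y * y = 1) : y = 1 := by
  have h1 : (y - 1) * (y - 1) = 0 := by
    linear_combination h - y * CharTwo.add_self_eq_zero (1 : F) + CharTwo.add_self_eq_zero (1 : F)
  rcases mul_eq_zero.1 h1 with h2 | h2 <;> exact sub_eq_zero.1 h2

theorem field_cases [Finite F] [CharP F 2] (h4 : 4 ≤ Nat.card F) (φ : F ≃+* F)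
    (hφ : ∃ k : ℕ, ∀ x, φ^[2 ^ k] x = x) :
    (Nat.card F = 4 ∧ ∀ x, φ x = x) ∨
    (3 ∣ Nat.card Fˣ ∧ ∀ x : Fˣ, ∃ y : Fˣ, x * Units.map (φ : F →* F) x = y ^ 3) ∨
    ∃ x y : F, x ≠ 0 ∧ x ≠ 1 ∧ y ≠ 0 ∧ y ≠ 1 ∧ y ≠ x ∧ x * y ≠ 1 ∧ (φ x = x ∨ φ x * x = 1) ∧
      (φ y = y ∨ φ y * y = 1) := by
  classical
  have : Fintype F := Fintype.ofFinite F
  rw [Nat.card_eq_fintype_card] at h4 ⊢
  by_cases h1 : ∀ x, φ x = x
  · rcases eq_or_lt_of_le h4 with h5 | h5
    · exact Or.inl ⟨h5.symm, h1⟩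
    · refine Or.inr (Or.inr ?_)
      have key : ∀ s : Finset F, s.card ≤ 4 → ∃ x, x ∉ s := by
        intro s hs
        by_contra hcon
        push Not at hcon
        have h6 : s = Finset.univ := Finset.eq_univ_iff_forall.2 hcon
        rw [h6, Finset.card_univ] at hs
        omega
      obtain ⟨x, hx⟩ := key {0, 1} (Finset.card_le_two.trans (by norm_num))
      obtain ⟨y, hy⟩ := key {0, 1, x, x⁻¹} Finset.card_le_four
      simp only [Finset.mem_insert, Finset.mem_singleton, not_or] at hx hy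
      refine ⟨x, y, hx.1, hx.2, hy.1, hy.2.1, hy.2.2.1, fun h => hy.2.2.2 ?_, Or.inl (h1 x), Or.inl (h1 y)⟩
      exact eq_inv_of_mul_eq_one_right h
  · push Not at h1
    obtain ⟨z, hz2, hz1⟩ := exists_two_cycle φ hφ h1
    have hz0 : z ≠ 0 := by rintro rfl; exact hz1 (map_zero φ)
    have hφz0 : φ z ≠ 0 := fun h => hz0 ((map_eq_zero φ).1 h)
    set y := φ z / z with hy
    have hyy : φ y * y = 1 := by
      rw [hy, map_div₀, hz2]
      field_simp
    have hy0 : y ≠ 0 := div_ne_zero hφz0 hz0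
    have hy1 : y ≠ 1 := fun h => hz1 (by rwa [hy, div_eq_one_iff_eq hz0] at h)
    by_cases h2 : ∃ x, x ≠ 0 ∧ x ≠ 1 ∧ φ x = x
    · obtain ⟨x, hx0, hx1, hx⟩ := h2
      refine Or.inr (Or.inr ⟨x, y, hx0, hx1, hy0, hy1, ?_, ?_, Or.inl hx, Or.inr hyy⟩)
      · intro h
        rw [h, hx] at hyy
        exact hx1 (sq_one hyy)
      · intro h
        have h5 : φ x * φ y = 1 := by rw [← map_mul, h, map_one]
        rw [hx] at h5
        have h6 : y = φ y := mul_left_cancel₀ hx0 (h.trans h5.symm)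
        rw [← h6] at hyy
        exact hy1 (sq_one hyy)
    · push Not at h2
      have hfix : ∀ x, x ≠ 0 → φ x = x → x = 1 := fun x hx0 hx => by
        by_contra hx1
        exact h2 x hx0 hx1 hx
      have ha : φ z + z = 1 := by
        refine hfix _ (fun h => hz1 (CharTwo.add_eq_zero.1 h)) ?_
        rw [map_add, hz2, add_comm]
      have hb : φ z * z = 1 := by
        refine hfix _ (mul_ne_zero hφz0 hz0) ?_
        rw [map_mul, hz2, mul_comm]
      have hz : z ^ 2 + z + 1 = 0 := by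
        have h5 : φ z = z + 1 := by linear_combination ha - CharTwo.add_self_eq_zero z
        rw [h5] at hb
        linear_combination hb + CharTwo.add_self_eq_zero (1 : F)
      have hz3 : z ^ 3 = 1 := by linear_combination (z - 1) * hz
      have hzne : z ≠ 1 := by
        rintro rfl
        exact hz1 (map_one φ)
      set Z : Fˣ := Units.mk0 z hz0 with hZ
      have hZo : orderOf Z = 3 := by
        have : Fact (Nat.Prime 3) := ⟨Nat.prime_three⟩
        refine orderOf_eq_prime (Units.ext ?_) fun h => hzne (congrArg Units.val h)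
        rw [Units.val_pow_eq_pow_val]
        exact hz3
      refine Or.inr (Or.inl ⟨?_, ?_⟩)
      · rw [← hZo]
        exact orderOf_dvd_natCard Z
      · obtain ⟨m, hm⟩ := MonoidHom.map_cyclic (Units.map (φ : F →* F))
        have h5 : Z ^ (m + 1) = 1 := by
          rw [zpow_add, ← hm, zpow_one]
          apply Units.ext
          exact hb
        have h6 := orderOf_dvd_iff_zpow_eq_one.2 h5
        rw [hZo] at h6
        obtain ⟨j, hj⟩ := h6
        intro x
        refine ⟨x ^ j, ?_⟩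
        rw [hm, ← zpow_one_add, add_comm, hj, ← zpow_natCast, ← zpow_mul, mul_comm]

end Cfsg.Agent.H71.QE
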