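import Cfsg.Agent.H71.QE.Cases

/-!
# S4547, task QE7 (helper71): `PSL_3(4)`, the exceptional cases of `PSL_3(F)`

* `exists_zeta` : a character of order three of `Fˣ`;
* `gInv3_four` : `|F| = 4`, the graph automorphism.
-/

set_option autoImplicit false
set_option linter.unusedSectionVars false

open scoped ComplexConjugate

namespace Cfsg.Agent.H71.QE

open Cfsg Matrix CoxeterSystem Cfsg.Agent.ChevalleyStructure.CoxeterGeom Cfsg.Agent.Tits.Roots Cfsg.Agent.Tits.Core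
open Cfsg.Agent.Nodes Cfsg.Agent.Nodes.BNOf Cfsg.Agent.Nodes.RGDLib Cfsg.Agent.Nodes.RootsA
  Cfsg.Agent.Nodes.Bruhat
open Cfsg.Agent.LieRecognition.BNCox (cA)
open Cfsg.Agent.Characters Cfsg.Agent.H726.Four Cfsg.Agent.H967.K4 Cfsg.Agent.OddOrderCharacters.Clifford
open Cfsg.Agent.H183.OutPSL (fldGL itrGL fld_mul_cj itr_mul_cj lift_cj_toGL)
open Cfsg.Agent.ClassicalGeometry.AutPSL.Root Cfsg.Agent.ClassicalGeometry.AutPSL.Auto
open Cfsg.Agent.H307.QE Cfsg.Agent.H821.K547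

universe u

variable {F : Type u} [Field F]

theorem exists_zeta [Finite F] (h3 : 3 ∣ Nat.card Fˣ) :
    ∃ ζ : Fˣ →* ℂˣ, (∀ x, ζ x ^ 3 = 1) ∧ ∃ x₀, ζ x₀ ≠ 1 := by
  classical
  have : Fintype F := Fintype.ofFinite F
  have h1 : 3 ∣ Fintype.card F - 1 := by
    rw [← Fintype.card_units, ← Nat.card_eq_fintype_card]
    exact h3
  obtain ⟨χ, hχ⟩ := MulChar.exists_mulChar_orderOf F h1 (Complex.isPrimitiveRoot_exp 3 (by norm_num))
  have h2 : χ ^ 3 = 1 := by rw [← hχ, pow_orderOf_eq_one]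
  refine ⟨χ.toUnitHom, fun x => ?_, ?_⟩
  · apply Units.ext
    rw [Units.val_pow_eq_pow_val, MulChar.coe_toUnitHom, ← MulChar.pow_apply_coe, h2, MulChar.one_apply_coe]
    rfl
  · by_contra hcon
    push Not at hcon
    have h4 : χ = 1 := by
      ext x
      rw [← MulChar.coe_toUnitHom, hcon, MulChar.one_apply_coe]
      rfl
    rw [h4, orderOf_one] at hχ
    exact absurd hχ (by norm_num)

variable [CharP F 2]

theorem neg_one_eq : (-1 : F) = 1 := CharTwo.neg_eq 1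

/-- the element of order five -/
def s5 (a : F) : SpecialLinearGroup (Fin 3) F :=
  ⟨!![0, 1, 0; 1, a, 0; 0, 0, 1], by rw [Matrix.det_fin_three]; simp [neg_one_eq]⟩

/-- its inverse -/
def i5 (a : F) : SpecialLinearGroup (Fin 3) F :=
  ⟨!![a, 1, 0; 1, 0, 0; 0, 0, 1], by rw [Matrix.det_fin_three]; simp [neg_one_eq]⟩

/-- the permutation matrix -/
def w5 : SpecialLinearGroup (Fin 3) F :=
  ⟨!![0, 1, 0; 1, 0, 0; 0, 0, 1], by rw [Matrix.det_fin_three]; simp [neg_one_eq]⟩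

theorem s5_mul_i5 (a : F) : s5 a * i5 a = 1 := by
  apply Subtype.ext
  change !![0, 1, 0; 1, a, 0; 0, 0, 1] * !![a, 1, 0; 1, 0, 0; 0, 0, 1] = (1 : Matrix (Fin 3) (Fin 3) F)
  ext i j
  fin_cases i <;> fin_cases j <;> simp [Matrix.mul_apply, Fin.sum_univ_three, CharTwo.add_self_eq_zero]

theorem w5_conj (a : F) : w5 * s5 a = i5 a * w5 := by
  apply Subtype.ext
  change !![0, 1, 0; 1, 0, 0; 0, 0, 1] * !![0, 1, 0; 1, a, 0; 0, 0, 1] =
    !![a, 1, 0; 1, 0, 0; 0, 0, 1] * (!![0, 1, 0; 1, 0, 0; 0, 0, 1] : Matrix (Fin 3) (Fin 3) F)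
  ext i j
  fin_cases i <;> fin_cases j <;> simp [Matrix.mul_apply, Fin.sum_univ_three]

theorem s5_pow_five {a : F} (ha : a ^ 2 + a + 1 = 0) : s5 a ^ 5 = 1 := by
  have h1 : a * a = a + 1 := by
    have h2 : a ^ 2 = -(a + 1) := by linear_combination ha
    rw [CharTwo.neg_eq] at h2
    rw [← h2, sq]
  have hd : ∀ x : F, x + x = 0 := CharTwo.add_self_eq_zero
  have h2 : (s5 a * s5 a : SpecialLinearGroup (Fin 3) F) = (⟨!![1, a, 0; a, a, 0; 0, 0, 1], by
      rw [Matrix.det_fin_three]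
      simp only [Matrix.of_apply, Matrix.cons_val', Matrix.cons_val_zero, Matrix.cons_val_one, Matrix.cons_val]
      linear_combination -h1 - hd 1 - hd 0⟩ : SpecialLinearGroup (Fin 3) F) := by
    apply Subtype.ext
    change !![0, 1, 0; 1, a, 0; 0, 0, 1] * !![0, 1, 0; 1, a, 0; 0, 0, 1] =
      (!![1, a, 0; a, a, 0; 0, 0, 1] : Matrix (Fin 3) (Fin 3) F)
    ext i j
    fin_cases i <;> fin_cases j <;> simp [Matrix.mul_apply, Fin.sum_univ_three]
    linear_combination h1 + hd 1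
  have h4 : (s5 a * s5 a * (s5 a * s5 a) : SpecialLinearGroup (Fin 3) F) = i5 a := by
    rw [h2]
    apply Subtype.ext
    change !![1, a, 0; a, a, 0; 0, 0, 1] * !![1, a, 0; a, a, 0; 0, 0, 1] =
      (!![a, 1, 0; 1, 0, 0; 0, 0, 1] : Matrix (Fin 3) (Fin 3) F)
    ext i j
    fin_cases i <;> fin_cases j <;> simp [Matrix.mul_apply, Fin.sum_univ_three]
    · linear_combination h1 + hd 1
    · linear_combination h1 + hd a
    · linear_combination h1 + hd a
    · linear_combination 2 * h1 + (a + 1) * hd 1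
  have h5 : s5 a ^ 5 = s5 a * (s5 a * s5 a * (s5 a * s5 a)) := by
    rw [pow_succ', pow_succ, pow_succ, pow_succ, pow_one, mul_assoc (s5 a * s5 a)]
  rw [h5, h4, s5_mul_i5]

theorem inv_s5 (a : F) : (s5 a)⁻¹ = i5 a := inv_eq_of_mul_eq_one_right (s5_mul_i5 a)

theorem s5_entry (a : F) : (s5 a : Matrix (Fin 3) (Fin 3) F) 0 1 = 1 := rfl

theorem itr_s5 (a : F) : itr (s5 a) = w5 * s5 a * w5⁻¹ := by
  have h1 : itr (s5 a) = i5 a := by
    apply Subtype.ext
    change ((s5 a)⁻¹ : SpecialLinearGroup (Fin 3) F).1ᵀ = (i5 a).1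
    rw [inv_s5]
    ext i j
    fin_cases i <;> fin_cases j <;> rfl
  rw [h1, w5_conj, mul_inv_cancel_right]

theorem s5_ne {a : F} : s5 a ∉ Subgroup.center (SpecialLinearGroup (Fin 3) F) := by
  intro h
  obtain ⟨r, -, hr'⟩ := Matrix.SpecialLinearGroup.mem_center_iff.1 h
  have h1 := congrArg (fun M : Matrix (Fin 3) (Fin 3) F => M 0 1) hr'
  have h2 : (Matrix.scalar (Fin 3) r : Matrix (Fin 3) (Fin 3) F) 0 1 = 0 := by
    rw [Matrix.scalar_apply, Matrix.diagonal_apply_ne _ (by decide)]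
  change (Matrix.scalar (Fin 3) r : Matrix (Fin 3) (Fin 3) F) 0 1 = (s5 a : Matrix (Fin 3) (Fin 3) F) 0 1 at h1
  rw [h2, s5_entry] at h1
  exact zero_ne_one h1

variable [Finite F]

/-- the `GL_3`-class of `s5` is a `SL_3`-class -/
theorem cj_s5 [Fintype (GL (Fin 3) F)] (a : F) (g : GL (Fin 3) F) :
    ∃ k : SpecialLinearGroup (Fin 3) F, cj g (s5 a) = k * s5 a * k⁻¹ := by
  set c := GeneralLinearGroup.det g with hc
  have h1 : GeneralLinearGroup.det (g * dgl 2 F (Pi.mulSingle 2 c⁻¹)) = 1 := by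
    rw [map_mul, det_dgl, Fin.prod_univ_three, ← hc]
    simp
  let k : SpecialLinearGroup (Fin 3) F := ⟨(g * dgl 2 F (Pi.mulSingle 2 c⁻¹) : GL (Fin 3) F), congrArg Units.val h1⟩
  have hk : SpecialLinearGroup.toGL k = g * dgl 2 F (Pi.mulSingle 2 c⁻¹) := Units.ext rfl
  have h2 : dgl 2 F (Pi.mulSingle 2 c⁻¹) * SpecialLinearGroup.toGL (s5 a) =
      SpecialLinearGroup.toGL (s5 a) * dgl 2 F (Pi.mulSingle 2 c⁻¹) := by
    apply Units.ext
    change Matrix.diagonal (fun i => ((Pi.mulSingle 2 c⁻¹ : Fin 3 → Fˣ) i : F)) * !![0, 1, 0; 1, a, 0; 0, 0, 1] =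
      !![0, 1, 0; 1, a, 0; 0, 0, 1] * Matrix.diagonal (fun i => ((Pi.mulSingle 2 c⁻¹ : Fin 3 → Fˣ) i : F))
    ext i j
    rw [Matrix.diagonal_mul, Matrix.mul_diagonal]
    fin_cases i <;> fin_cases j <;> simp
  refine ⟨k, ?_⟩
  apply toGL_injective (n := 2) (F := F)
  rw [toGL_cj, map_mul, map_mul, map_inv, hk, mul_assoc g (dgl 2 F (Pi.mulSingle 2 c⁻¹)), h2, _root_.mul_inv_rev]
  group

theorem orderOf_s5 {a : F} (ha : a ^ 2 + a + 1 = 0) : orderOf (s5 a) = 5 := by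
  have : Fact (Nat.Prime 5) := ⟨by norm_num⟩
  refine orderOf_eq_prime (s5_pow_five ha) ?_
  intro h
  exact s5_ne (a := a) (by rw [h]; exact one_mem _)

/-- **`|F| = 4`, the graph automorphism** -/
theorem gInv3_four (hT : H601.OddDeg.TwoC (ProjectiveSpecialLinearGroup (Fin 3) F)) (hF : Nat.card F = 4)
    {β : MulAut (ProjectiveSpecialLinearGroup (Fin 3) F)} (hpow : ∃ k : ℕ, β ^ 2 ^ k = 1) {φ : F ≃+* F}
    (hφ : ∀ x, φ x = x) {A : GL (Fin 3) F} (hβ : β = lift (cj A * fld φ * itr)) : GInv3 β := by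
  have : Finite (ProjectiveSpecialLinearGroup (Fin 3) F) := Quotient.finite _
  have : Fintype (GL (Fin 3) F) := Fintype.ofFinite _
  have : Fintype (ProjectiveSpecialLinearGroup (Fin 3) F) := Fintype.ofFinite _
  have hc3 : Nat.card Fˣ = 3 := by
    rw [Nat.card_units, hF]
  obtain ⟨ζ, hζ, x₀, hx₀⟩ := exists_zeta (F := F) (by rw [hc3])
  -- an element of order three
  have hx1 : (x₀ : F) ≠ 1 := by
    intro h
    apply hx₀
    rw [show x₀ = 1 from Units.ext h, map_one]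
  have hx3 : (x₀ : F) ^ 3 = 1 := by
    have h1 : x₀ ^ 3 = 1 := by rw [← hc3, pow_card_eq_one']
    have h2 := congrArg Units.val h1
    rwa [Units.val_pow_eq_pow_val] at h2
  have ha : (x₀ : F) ^ 2 + x₀ + 1 = 0 := by
    have h1 : ((x₀ : F) - 1) * ((x₀ : F) ^ 2 + x₀ + 1) = 0 := by linear_combination hx3
    exact (mul_eq_zero.1 h1).resolve_left (sub_ne_zero.2 hx1)
  set s : SpecialLinearGroup (Fin 3) F := s5 (x₀ : F) with hs
  have hos : orderOf s = 5 := orderOf_s5 ha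
  have hfld : (fld φ : MulAut (SpecialLinearGroup (Fin 3) F)) = 1 := by
    ext g i j
    rw [coe_fld_apply, hφ]
    rfl
  obtain ⟨Φ, hΦ⟩ := exists_Phi (F := F) ζ
  obtain ⟨k, hk⟩ := hpow
  obtain ⟨χ, h1, h2⟩ := exists_os_const hk (Phi_isCharacter hΦ) (Phi_one hΦ) odd_index_BG (Phi_sf hΦ)
    (fun x => by
      rw [hβ]
      exact Phi_aut hΦ φ (Or.inl fun x => congrArg ζ (Units.ext (hφ x))) A x)
  have h0 : RR ζ (SpecialLinearGroup.toGL s) = 0 := by
    refine RR_zero ζ (ℓ := 5) (by norm_num) ?_ (by norm_num) ?_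
    · rw [orderOf_injective _ (toGL_injective (n := 2) (F := F)), hos]
    · have h3 : Nat.card (TG 2 F) ∣ 27 := by
        have h4 := Subgroup.card_range_dvd (dgl 2 F)
        rw [Nat.card_fun, hc3] at h4
        simpa [TG] using h4
      intro h4
      have h5 := h4.trans h3
      norm_num at h5
  have hv : χ (pr s) = 0 := val_zero hΦ hζ hx₀ h1.odd.1 h2 (cj_s5 _) h0
  have hne : χ ≠ 1 := by
    rintro rfl
    exact one_ne_zero hv
  have hord : orderOf (pr s : ProjectiveSpecialLinearGroup (Fin 3) F) ∣ 5 := by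
    rw [← hos]
    exact orderOf_map_dvd _ _
  refine gInv3_of_third hT h1 hne (exists_os_third_zero hk (x := pr s) ?_ ?_ ?_ h1 hne hv)
  · intro h3
    exact s5_ne ((QuotientGroup.eq_one_iff _).1 h3)
  · exact Odd.of_dvd_nat (by decide) hord
  · obtain ⟨m, hm⟩ := cj_s5 (x₀ : F) (A * SpecialLinearGroup.toGL w5)
    refine ⟨pr m, ?_⟩
    rw [hβ, lift_pr, MulAut.mul_apply, MulAut.mul_apply, hfld, MulAut.one_apply, itr_s5, ← map_inv, ← map_mul,
      ← map_mul, ← hm]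
    congr 1
    apply toGL_injective (n := 2) (F := F)
    rw [toGL_cj, toGL_cj, map_mul, map_mul, map_inv]
    group

end Cfsg.Agent.H71.QE
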