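import Cfsg.Agent.H71.QE.GLSer

/-!
# S4547, task QE7 (helper71): the invariance of `RR ζ` under graph-field automorphisms
-/

set_option autoImplicit false
set_option linter.unusedSectionVars false

open scoped ComplexConjugate

namespace Cfsg.Agent.H71.QE

open Cfsg Matrix CoxeterSystem Cfsg.Agent.ChevalleyStructure.CoxeterGeom Cfsg.Agent.Tits.Roots Cfsg.Agent.Tits.Core
open Cfsg.Agent.Nodes Cfsg.Agent.Nodes.Reps Cfsg.Agent.Nodes.BNOf Cfsg.Agent.Nodes.RGDLib Cfsg.Agent.Nodes.RootsA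
  Cfsg.Agent.Nodes.RGDTypeA Cfsg.Agent.Nodes.Bruhat
open Cfsg.Agent.LieRecognition.BNCox (cA)
open Cfsg.Agent.Characters Cfsg.Agent.H726.Four Cfsg.Agent.H967.K4 Cfsg.Agent.OddOrderCharacters.Clifford
open Cfsg.Agent.TitsThree.KSideA (tv tv_of_ne tv_add tv_zero tv_neg)
open Cfsg.Agent.H183.OutPSL (fldGL itrGL)

universe u

section

variable {F : Type u} [Field F]

/-- the antidiagonal permutation matrix -/
def PP (F : Type u) [Field F] : GL (Fin 3) F where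
  val := !![0, 0, 1; 0, 1, 0; 1, 0, 0]
  inv := !![0, 0, 1; 0, 1, 0; 1, 0, 0]
  val_inv := by
    ext i j
    fin_cases i <;> fin_cases j <;> simp [Matrix.mul_apply, Fin.sum_univ_three, Matrix.one_apply]
  inv_val := by
    ext i j
    fin_cases i <;> fin_cases j <;> simp [Matrix.mul_apply, Fin.sum_univ_three, Matrix.one_apply]

theorem PP_inv : (PP F)⁻¹ = PP F := Units.ext rfl

theorem PP_apply (i j : Fin 3) : (PP F : Matrix (Fin 3) (Fin 3) F) i j = if j = Fin.rev i then 1 else 0 := by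
  fin_cases i <;> fin_cases j <;> rfl

theorem mul_PP (M : Matrix (Fin 3) (Fin 3) F) (i j : Fin 3) :
    ((PP F : Matrix (Fin 3) (Fin 3) F) * M * (PP F : Matrix (Fin 3) (Fin 3) F)) i j = M (Fin.rev i) (Fin.rev j) := by
  have h1 : ∀ (M : Matrix (Fin 3) (Fin 3) F) (i j : Fin 3), ((PP F : Matrix (Fin 3) (Fin 3) F) * M) i j = M (Fin.rev i) j := by
    intro M i j
    rw [Matrix.mul_apply, Finset.sum_eq_single (Fin.rev i)]
    · rw [PP_apply, if_pos rfl, one_mul]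
    · intro k _ hk
      rw [PP_apply, if_neg hk, zero_mul]
    · intro h
      exact absurd (Finset.mem_univ _) h
  rw [Matrix.mul_apply, Finset.sum_eq_single (Fin.rev j)]
  · rw [h1, PP_apply, if_pos (Fin.rev_rev j).symm, mul_one]
  · intro k _ hk
    rw [PP_apply, if_neg (fun e => hk (by rw [e, Fin.rev_rev])), mul_zero]
  · intro h
    exact absurd (Finset.mem_univ _) h

theorem itrGL_val (A : GL (Fin 3) F) : (itrGL A : Matrix (Fin 3) (Fin 3) F) =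
    ((A⁻¹ : GL (Fin 3) F) : Matrix (Fin 3) (Fin 3) F)ᵀ := rfl

theorem itrGL_mul (A B : GL (Fin 3) F) : itrGL (A * B) = itrGL A * itrGL B := by
  apply Units.ext
  change (((A * B)⁻¹ : GL (Fin 3) F) : Matrix (Fin 3) (Fin 3) F)ᵀ = ((A⁻¹ : GL (Fin 3) F) : Matrix (Fin 3) (Fin 3) F)ᵀ *
    ((B⁻¹ : GL (Fin 3) F) : Matrix (Fin 3) (Fin 3) F)ᵀ
  rw [_root_.mul_inv_rev, Units.val_mul, Matrix.transpose_mul]

theorem itrGL_itrGL (A : GL (Fin 3) F) : itrGL (itrGL A) = A := by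
  apply Units.ext
  change ((A : Matrix (Fin 3) (Fin 3) F)ᵀ)ᵀ = A
  rw [Matrix.transpose_transpose]

/-- inverse transpose as an automorphism -/
def itA (F : Type u) [Field F] : MulAut (GL (Fin 3) F) where
  toFun := itrGL
  invFun := itrGL
  left_inv := itrGL_itrGL
  right_inv := itrGL_itrGL
  map_mul' := itrGL_mul

/-- the graph-field automorphism preserving the upper triangular matrices -/
def alp (φ : F ≃+* F) : MulAut (GL (Fin 3) F) := MulAut.conj (PP F) * fldGL φ * itA F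

theorem alp_apply (φ : F ≃+* F) (g : GL (Fin 3) F) : alp φ g = PP F * fldGL φ (itrGL g) * (PP F)⁻¹ := rfl

theorem alp_val (φ : F ≃+* F) (g : GL (Fin 3) F) (i j : Fin 3) :
    (alp φ g : Matrix (Fin 3) (Fin 3) F) i j = φ (((g⁻¹ : GL (Fin 3) F) : Matrix (Fin 3) (Fin 3) F) (Fin.rev j) (Fin.rev i)) := by
  rw [alp_apply, PP_inv, Units.val_mul, Units.val_mul, mul_PP]
  rfl

theorem alp_dgl (φ : F ≃+* F) (d : Fin 3 → Fˣ) :
    alp φ (dgl 2 F d) = dgl 2 F (fun i => (Units.map (φ : F →* F) (d (Fin.rev i)))⁻¹) := by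
  apply Units.ext
  ext i j
  rw [alp_val, ← map_inv, dgl_val, dgl_val]
  by_cases hij : i = j
  · rw [hij, Matrix.diagonal_apply_eq, Matrix.diagonal_apply_eq]
    simp
  · rw [Matrix.diagonal_apply_ne _ hij, Matrix.diagonal_apply_ne _ (fun e => hij (Fin.rev_injective e).symm), map_zero]

theorem tv_inv (a b : Fin 3) (s : F) : (tv a b s)⁻¹ = tv a b (-s) := by
  rw [inv_eq_iff_mul_eq_one, ← tv_add, add_neg_cancel, tv_zero]

theorem alp_tv (φ : F ≃+* F) {a b : Fin 3} (hab : a ≠ b) (s : F) :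
    alp φ (SpecialLinearGroup.toGL (tv a b s)) = SpecialLinearGroup.toGL (tv (Fin.rev b) (Fin.rev a) (-(φ s))) := by
  apply Units.ext
  ext i j
  rw [alp_val, ← map_inv, tv_inv]
  change φ ((tv a b (-s)).1 (Fin.rev j) (Fin.rev i)) = (tv (Fin.rev b) (Fin.rev a) (-(φ s))).1 i j
  rw [tv_val hab, tv_val (fun e => hab (Fin.rev_injective e).symm)]
  simp only [Matrix.add_apply, Matrix.one_apply, Matrix.single_apply, map_add]
  congr 1
  · by_cases hij : i = j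
    · rw [if_pos hij, if_pos (by rw [hij]), map_one]
    · rw [if_neg hij, if_neg (fun e => hij (Fin.rev_injective e).symm), map_zero]
  · by_cases h1 : a = Fin.rev j ∧ b = Fin.rev i
    · rw [if_pos h1, if_pos ⟨by rw [h1.2, Fin.rev_rev], by rw [h1.1, Fin.rev_rev]⟩, map_neg]
    · rw [if_neg h1, if_neg (fun h2 => h1 ⟨by rw [← h2.2, Fin.rev_rev], by rw [← h2.1, Fin.rev_rev]⟩), map_zero]

variable [Finite F] [CharP F 2]

theorem alp_T (φ : F ≃+* F) : ∀ t ∈ TG 2 F, alp φ t ∈ TG 2 F := by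
  rintro _ ⟨d, rfl⟩
  rw [alp_dgl]
  exact dgl_mem _

theorem alp_B_le (φ : F ≃+* F) : (BG F).map (alp φ).toMonoidHom ≤ BG F := by
  rw [Subgroup.map_le_iff_le_comap]
  refine sup_le ?_ (RGD.Sup_le ?_)
  · intro t ht
    exact le_sup_left (a := TG 2 F) (alp_T φ t ht)
  · rintro x ⟨hx, h0⟩
    obtain ⟨a, b, hab, rfl⟩ := exists_of_isRoot csA (isCartan 2) hx
    rw [X_rtA hab]
    rintro _ ⟨_, ⟨s, rfl⟩, rfl⟩
    have h1 : a ≤ b := rtA_nonneg_iff.1 h0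
    have hab' : Fin.rev b ≠ Fin.rev a := fun e => hab (Fin.rev_injective e).symm
    have h2 : rtA (Fin.rev b) (Fin.rev a) ∈ RGD.Pos csA (isCartan 2) :=
      ⟨isRoot_rtA csA (isCartan 2) hab', rtA_nonneg_iff.2 (Fin.rev_le_rev.2 h1)⟩
    refine le_sup_right (a := TG 2 F) (RGD.le_Sup h2 ?_)
    rw [X_rtA hab']
    exact ⟨_, ⟨-(φ s), rfl⟩, (alp_tv φ hab s).symm⟩

theorem alp_B (φ : F ≃+* F) (x : GL (Fin 3) F) : alp φ x ∈ BG F ↔ x ∈ BG F := by
  have hfin : Finite (GL (Fin 3) F) := inferInstance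
  have h1 : (BG F).map (alp φ).toMonoidHom = BG F := by
    apply Subgroup.eq_of_le_of_card_ge (alp_B_le φ)
    rw [Nat.card_congr ((BG F).equivMapOfInjective (alp φ).toMonoidHom (alp φ).injective).toEquiv]
  constructor
  · intro h2
    rw [← h1] at h2
    obtain ⟨y, hy, e⟩ := h2
    rwa [← (alp φ).injective e]
  · intro h2
    rw [← h1]
    exact ⟨x, h2, rfl⟩

variable [Fintype (GL (Fin 3) F)]

/-- **The invariance.** -/
theorem RR_alp {ζ : Fˣ →* ℂˣ} (φ : F ≃+* F)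
    (hφ : (∀ x : Fˣ, ζ (Units.map (φ : F →* F) x) = ζ x) ∨ (∀ x : Fˣ, ζ (Units.map (φ : F →* F) x) = (ζ x)⁻¹))
    (g : GL (Fin 3) F) : RR ζ (alp φ g) = RR ζ g := by
  rcases hφ with hφ | hφ
  · refine R_aut (tsG F) (alp φ) (alp_B φ) (alp_T φ) _ _ ?_ g
    intro t
    obtain ⟨d, rfl⟩ := exists_dgl t
    unfold lamC
    congr 1
    have e : (⟨alp φ (dgl 2 F d), alp_T φ _ (dgl_mem d)⟩ : TG 2 F) =
        ⟨dgl 2 F (fun i => (Units.map (φ : F →* F) (d (Fin.rev i)))⁻¹), dgl_mem _⟩ := Subtype.ext (alp_dgl φ d)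
    change lam ζ v0 ⟨alp φ (dgl 2 F d), alp_T φ _ (dgl_mem d)⟩ = _
    rw [e, lam_dgl, lam_dgl, Fin.prod_univ_three, Fin.prod_univ_three]
    simp only [map_inv, hφ, v0]
    change (ζ (d 2))⁻¹ ^ (1 : ℤ) * (ζ (d 1))⁻¹ ^ (0 : ℤ) * (ζ (d 0))⁻¹ ^ (-1 : ℤ) =
      ζ (d 0) ^ (1 : ℤ) * ζ (d 1) ^ (0 : ℤ) * ζ (d 2) ^ (-1 : ℤ)
    simp [mul_comm]
  · have h1 : RR ζ g = TS.R (cG F) (lamC ζ (fun i => v0 (Fin.revPerm i))) g := by rw [RR_act]
    rw [h1]
    refine R_aut (tsG F) (alp φ) (alp_B φ) (alp_T φ) _ _ ?_ g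
    intro t
    obtain ⟨d, rfl⟩ := exists_dgl t
    unfold lamC
    congr 1
    have e : (⟨alp φ (dgl 2 F d), alp_T φ _ (dgl_mem d)⟩ : TG 2 F) =
        ⟨dgl 2 F (fun i => (Units.map (φ : F →* F) (d (Fin.rev i)))⁻¹), dgl_mem _⟩ := Subtype.ext (alp_dgl φ d)
    change lam ζ v0 ⟨alp φ (dgl 2 F d), alp_T φ _ (dgl_mem d)⟩ = _
    rw [e, lam_dgl, lam_dgl, Fin.prod_univ_three, Fin.prod_univ_three]
    simp only [map_inv, hφ, v0, inv_inv]
    change (ζ (d 2)) ^ (1 : ℤ) * (ζ (d 1)) ^ (0 : ℤ) * (ζ (d 0)) ^ (-1 : ℤ) =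
      ζ (d 0) ^ (-1 : ℤ) * ζ (d 1) ^ (0 : ℤ) * ζ (d 2) ^ (1 : ℤ)
    simp [mul_comm]

end

end Cfsg.Agent.H71.QE
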