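import Cfsg.Agent.H307.QE.Par
import Cfsg.Agent.H726.Four.TSer

/-!
# S4547, task QE7 (helper71): the principal series of a root group datum in characteristic two
-/

set_option autoImplicit false
set_option linter.unusedSectionVars false

open scoped ComplexConjugate
open Cfsg

namespace Cfsg.Agent.H71.QE

open Cfsg.Agent.Characters Cfsg.Agent.H601.K4 Cfsg.Agent.H967.K4 Cfsg.Agent.H821.K547 Cfsg.Agent.H307.QE
open CoxeterSystem Cfsg.Agent.ChevalleyStructure.CoxeterGeom Cfsg.Agent.Tits.Roots Cfsg.Agent.Tits.Core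
  Cfsg.Agent.Tits.Exchange Cfsg.Agent.Nodes.Reps Cfsg.Agent.Nodes.BNOf Cfsg.Agent.Nodes.StabComb
  Cfsg.Agent.Nodes.Bruhat Cfsg.Agent.Nodes.OppDec Cfsg.Agent.Nodes.LeviDec Cfsg.Agent.H53.HC
  Cfsg.Agent.H246.Dl Cfsg.Agent.KFacts.RgdAut Cfsg.Agent.KFacts.RgdDiag
open Cfsg.Agent.H726.Four (TS)

universe u

section rgd

variable {I W : Type*} {Y : Type u} [Fintype I] [DecidableEq I] [Group W] [Group Y] {M : CoxeterMatrix I}
  {cs : CoxeterSystem M W} {A : I → I → ℤ} {h : IsCartan M A} {T : Subgroup Y} {n : I → Y}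
  {X : (I → ℤ) → Subgroup Y}

/-- representatives of the elements of `W` -/
noncomputable def gw (R : RGD cs h 2 T n X) (w : W) : Y := (exists_rp cs R.nsys w).choose

theorem gw_rp (R : RGD cs h 2 T n X) (w : W) : Rp cs R.nsys w (gw R w) := (exists_rp cs R.nsys w).choose_spec

/-- **The principal series of a root group datum.** -/
theorem exists_ts (R : RGD cs h 2 T n X) [Finite W] [Finite Y] (hG : GG cs h T X = ⊤) :
    ∃ c : RGD.B cs h T X →* T, TS 2 (RGD.B cs h T X) T c (gw R) ∧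
      ∀ (u : Y) (_ : u ∈ RGD.Sup X (RGD.Pos cs h)) (t : T) (hut : u * t ∈ RGD.B cs h T X), c ⟨u * t, hut⟩ = t := by
  have hn := R.T_le_normalizer_U
  have hVM : ∀ x, x ∈ RGD.Sup X (RGD.Pos cs h) → x ∈ T → x = 1 := fun x h1 h2 => T_inf_U R h1 h2
  obtain ⟨π, hπ⟩ := exists_proj (RGD.Sup X (RGD.Pos cs h)) T hn hVM
  have hB : RGD.B cs h T X ≤ RGD.Sup X (RGD.Pos cs h) ⊔ T := by
    rw [sup_comm]
    exact le_rfl
  have hc : ∀ (u : Y) (_ : u ∈ RGD.Sup X (RGD.Pos cs h)) (t : T) (hut : u * t ∈ RGD.B cs h T X),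
      (π.comp (Subgroup.inclusion hB)) ⟨u * t, hut⟩ = t := fun u hu t hut => hπ u hu t
  refine ⟨π.comp (Subgroup.inclusion hB), ⟨le_sup_left, ?_, ?_, R.tcop, fun w => (gw_rp R w).mem_normalizer, ?_, ?_, ?_⟩, hc⟩
  · intro t ht
    have h1 := hc 1 (one_mem _) ⟨t, ht⟩ (by rw [one_mul]; exact le_sup_left (a := T) ht)
    rw [← h1]
    congr 1
    exact Subtype.ext (one_mul t).symm
  · rintro ⟨b, hb⟩ hb1
    obtain ⟨u, hu, t, ht, rfl⟩ := H967.K4.mem_sup _ _ hn (hB hb)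
    have h1 := hc u hu ⟨t, ht⟩ hb
    have h2 : (⟨t, ht⟩ : T) = 1 := h1.symm.trans hb1
    have h3 : t = 1 := congrArg Subtype.val h2
    obtain ⟨k, hk⟩ := R.isPGroup_Upos ⟨u, hu⟩
    refine ⟨k, ?_⟩
    change (u * t) ^ 2 ^ k = 1
    rw [h3, mul_one]
    exact congrArg Subtype.val hk
  · intro x
    obtain ⟨w, b₁, hb₁, k, hk, b₂, hb₂, e⟩ := (mem_GG R).1 (show x ∈ GG cs h T X by rw [hG]; exact Subgroup.mem_top x)
    refine ⟨w, b₁, hb₁, (gw R w)⁻¹ * k * b₂, mul_mem (le_sup_left (a := T) ((gw_rp R w).unique hk)) hb₂, ?_⟩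
    rw [e]; group
  · rintro w w' ⟨a, ha, b, hb, e⟩
    have h1 : Cell R.nsys cs h X w (gw R w') := ⟨a, ha, gw R w, gw_rp R w, b, hb, e⟩
    exact Cell.unique R h1 (cell_of_rp (gw_rp R w'))
  · intro w w'
    exact ((gw_rp R w).mul (gw_rp R w')).unique (gw_rp R _)

end rgd

end Cfsg.Agent.H71.QE
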