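import Cfsg.Agent.H71.QE.GLRgd
import Cfsg.Agent.H71.QE.TSRgd
import Cfsg.Agent.Nodes.KindA

/-!
# S4547, task QE7 (helper71): the action of `W` on the torus of `GL_{n+1}(F)` and on its linear characters

`lam ζ v` : the linear character `diag d ↦ ∏ ζ (d i) ^ v i`.
-/

set_option autoImplicit false
set_option linter.unusedSectionVars false

namespace Cfsg.Agent.H71.QE

open Matrix CoxeterSystem Cfsg.Agent.ChevalleyStructure.CoxeterGeom Cfsg.Agent.Tits.Roots Cfsg.Agent.Tits.Core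
open Cfsg.Agent.Nodes Cfsg.Agent.Nodes.Reps Cfsg.Agent.Nodes.BNOf Cfsg.Agent.Nodes.RGDLib Cfsg.Agent.Nodes.RootsA
  Cfsg.Agent.Nodes.RGDTypeA Cfsg.Agent.Nodes.Bruhat
open Cfsg.Agent.LieRecognition.BNCox (cA)
open Cfsg.Agent.H726.Four (TS)

universe u

section

variable {n : ℕ} {F : Type u} [Field F] [Finite F] [CharP F 2]
variable {W : Type*} [Group W] [Finite W] (cs : CoxeterSystem (cA n) W) {A : Fin n → Fin n → ℤ} (h : IsCartan (cA n) A)

theorem exists_pm (w : W) : ∃ σ : Equiv.Perm (Fin (n + 1)), (∀ a b, rep cs h w (rtA a b) = rtA (σ a) (σ b)) ∧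
    ∀ k, Rp cs (rgd_gl (F := F) (p := 2) cs h).nsys w k → ∀ d, k⁻¹ * dgl n F d * k = dgl n F (fun i => d (σ i)) := by
  obtain ⟨ω, rfl⟩ := cs.wordProd_surjective w
  induction ω with
  | nil =>
    refine ⟨1, fun a b => by rw [wordProd_nil, map_one]; rfl, fun k hk d => ?_⟩
    rw [wordProd_nil] at hk
    obtain ⟨d', rfl⟩ := hk.mem_of_one
    rw [mul_assoc, ← map_mul, mul_comm d d', map_mul, inv_mul_cancel_left]
    rfl
  | cons j ω ih =>
    obtain ⟨σ, hσ, hσ'⟩ := ih
    refine ⟨Equiv.swap j.castSucc j.succ * σ, fun a b => ?_, fun k hk d => ?_⟩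
    · rw [wordProd_cons, rep_mul_apply, hσ, rep_simple_rtA]
      rfl
    · have h1 : Rp cs (rgd_gl (F := F) (p := 2) cs h).nsys (cs.wordProd ω) ((SpecialLinearGroup.toGL (ns n F j))⁻¹ * k) := by
        have h2 := (rp_simple cs (rgd_gl (F := F) (p := 2) cs h).nsys j).inv.mul hk
        rwa [wordProd_cons, inv_mul_cancel_left] at h2
      have h3 := mono_dgl (mono_ns (F := F) j) (fun i => d (Equiv.swap j.castSucc j.succ i))
      have h4 : (fun i => (fun i => d (Equiv.swap j.castSucc j.succ i)) ((Equiv.swap j.castSucc j.succ)⁻¹ i)) = d := by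
        funext i
        rw [Equiv.swap_inv]
        exact congrArg d (Equiv.swap_apply_self _ _ _)
      rw [h4] at h3
      have h5 := hσ' _ h1 (fun i => d (Equiv.swap j.castSucc j.succ i))
      rw [show (fun i => d ((Equiv.swap j.castSucc j.succ * σ) i)) =
        (fun i => (fun i => d (Equiv.swap j.castSucc j.succ i)) (σ i)) from rfl, ← h5, _root_.mul_inv_rev, inv_inv]
      have h6 : SpecialLinearGroup.toGL (ns n F j) * dgl n F (fun i => d (Equiv.swap j.castSucc j.succ i)) *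
          (SpecialLinearGroup.toGL (ns n F j))⁻¹ = dgl n F d := by
        rw [h3, mul_inv_cancel_right]
      rw [← h6]
      group

/-- the permutation of `w` -/
noncomputable def pm (F : Type u) [Field F] [Finite F] [CharP F 2] (w : W) : Equiv.Perm (Fin (n + 1)) :=
  (exists_pm (F := F) cs h w).choose

theorem pm_rep (w : W) (a b : Fin (n + 1)) : rep cs h w (rtA a b) = rtA (pm cs h F w a) (pm cs h F w b) :=
  (exists_pm (F := F) cs h w).choose_spec.1 a b

theorem pm_rp {w : W} {k : GL (Fin (n + 1)) F} (hk : Rp cs (rgd_gl (F := F) (p := 2) cs h).nsys w k)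
    (d : Fin (n + 1) → Fˣ) : k⁻¹ * dgl n F d * k = dgl n F (fun i => d (pm cs h F w i)) :=
  (exists_pm (F := F) cs h w).choose_spec.2 k hk d

theorem pm_eq_one {w : W} (hw : pm cs h F w = 1) : w = 1 := by
  apply rep_injective cs h
  rw [map_one]
  refine LinearMap.pi_ext' fun i => ?_
  refine LinearMap.ext_ring ?_
  have h1 := pm_rep (F := F) cs h w i.castSucc i.succ
  rw [hw] at h1
  simpa [rtA_sr, sr] using h1

theorem pm_surj (hn : 0 < n) (σ : Equiv.Perm (Fin (n + 1))) : ∃ w : W, pm cs h F w = σ := by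
  obtain ⟨w, hw⟩ := KindA.exists_w cs h σ
  refine ⟨w, ?_⟩
  ext1 a
  obtain ⟨b, hb⟩ : ∃ b : Fin (n + 1), a ≠ b := by
    by_cases ha : a = 0
    · exact ⟨Fin.last n, by rw [ha]; intro e; have := congrArg Fin.val e; simp at this; omega⟩
    · exact ⟨0, ha⟩
  have h1 := (pm_rep (F := F) cs h w a b).symm.trans (hw a b)
  exact (rtA_inj (fun e => hb ((pm cs h F w).injective e)) h1).1

/-- the linear characters -/
noncomputable def lam (ζ : Fˣ →* ℂˣ) (v : Fin (n + 1) → ℤ) : TG n F →* ℂˣ :=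
  (MonoidHom.mk' (fun d : Fin (n + 1) → Fˣ => ∏ i, (ζ (d i)) ^ v i) (by
    intro d d'
    rw [← Finset.prod_mul_distrib]
    refine Finset.prod_congr rfl fun i _ => ?_
    rw [Pi.mul_apply, map_mul, mul_zpow])).comp (MonoidHom.ofInjective (dgl_injective (n := n) (F := F))).symm.toMonoidHom

theorem lam_dgl (ζ : Fˣ →* ℂˣ) (v : Fin (n + 1) → ℤ) (d : Fin (n + 1) → Fˣ) (hd : dgl n F d ∈ TG n F) :
    lam ζ v ⟨dgl n F d, hd⟩ = ∏ i, (ζ (d i)) ^ v i := by
  have h1 : (MonoidHom.ofInjective (dgl_injective (n := n) (F := F))).symm ⟨dgl n F d, hd⟩ = d := by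
    rw [MulEquiv.symm_apply_eq]
    rfl
  change ∏ i, (ζ ((MonoidHom.ofInjective (dgl_injective (n := n) (F := F))).symm ⟨dgl n F d, hd⟩ i)) ^ v i = _
  rw [h1]

end

end Cfsg.Agent.H71.QE
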