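import Cfsg.Agent.Nodes.RGDTypeA
import Cfsg.Agent.Nodes.Bruhat

/-!
# S4547, task QE7 (helper71): the root group datum of `GL_{n+1}(F)`

`dgl d` : the diagonal matrix; `TG` : the diagonal torus of `GL_{n+1}(F)`; `rgd_gl` : the root group datum;
`GG_gl` : it generates.
-/

set_option autoImplicit false
set_option linter.unusedSectionVars false

namespace Cfsg.Agent.H71.QE

open Matrix CoxeterSystem Cfsg.Agent.ChevalleyStructure.CoxeterGeom Cfsg.Agent.Tits.Roots
open Cfsg.Agent.Nodes Cfsg.Agent.Nodes.Reps Cfsg.Agent.Nodes.BNOf Cfsg.Agent.Nodes.RGDLib Cfsg.Agent.Nodes.RootsA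
  Cfsg.Agent.Nodes.RGDTypeA Cfsg.Agent.Nodes.Bruhat
open Cfsg.Agent.LieRecognition.BNCox (cA)
open Cfsg.Agent.TitsThree.KSideA (tv tv_of_ne tv_add tv_zero tv_neg)

universe u

section enlarge

variable {I W Y : Type*} [Fintype I] [DecidableEq I] [Group W] [Group Y] {M : CoxeterMatrix I}
  {cs : CoxeterSystem M W} {A : I → I → ℤ} {h : IsCartan M A} {p : ℕ} {T : Subgroup Y} {n : I → Y}
  {X : (I → ℤ) → Subgroup Y}

/-- a bigger torus -/
theorem rgd_torus (R : RGD cs h p T n X) {T' : Subgroup Y} (hT : T ≤ T')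
    (hn : ∀ i, n i ∈ Subgroup.normalizer (T' : Set Y))
    (htor : ∀ x, IsRoot cs h x → ∀ t ∈ T', cj t (X x) = X x) (hc : (Nat.card T').Coprime p) :
    RGD cs h p T' n X where
  nsys := ⟨hn, fun i j => hT (R.nsys.rel i j)⟩
  conj := R.conj
  tor := htor
  comm := R.comm
  rk1 i u hu hu1 := by
    obtain ⟨a, ha, t, ht, b, hb, e⟩ := R.rk1 i u hu hu1
    exact ⟨a, ha, t, hT ht, b, hb, e⟩
  pgrp := R.pgrp
  notp := R.notp
  tcop := hc

end enlarge

section gl

variable {n : ℕ} {F : Type u} [Field F]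

/-- diagonal matrices -/
noncomputable def dgl (n : ℕ) (F : Type u) [Field F] : (Fin (n + 1) → Fˣ) →* GL (Fin (n + 1)) F :=
  (Units.map (Matrix.diagonalRingHom (Fin (n + 1)) F).toMonoidHom).comp MulEquiv.piUnits.symm.toMonoidHom

theorem dgl_val (d : Fin (n + 1) → Fˣ) :
    ((dgl n F d : GL (Fin (n + 1)) F) : Matrix (Fin (n + 1)) (Fin (n + 1)) F) = Matrix.diagonal fun i => (d i : F) := rfl

/-- the diagonal torus -/
noncomputable def TG (n : ℕ) (F : Type u) [Field F] : Subgroup (GL (Fin (n + 1)) F) := (dgl n F).range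

theorem dgl_mem (d : Fin (n + 1) → Fˣ) : dgl n F d ∈ TG n F := ⟨d, rfl⟩

theorem dgl_injective : Function.Injective (dgl n F) := by
  intro d d' e
  funext i
  apply Units.ext
  have h1 := congrArg (fun g : GL (Fin (n + 1)) F => (g : Matrix (Fin (n + 1)) (Fin (n + 1)) F) i i) e
  simpa [dgl_val] using h1

theorem mem_TG {g : GL (Fin (n + 1)) F} : g ∈ TG n F ↔ ∀ i j, i ≠ j → (g : Matrix (Fin (n + 1)) (Fin (n + 1)) F) i j = 0 := by
  constructor
  · rintro ⟨d, rfl⟩ i j hij
    rw [dgl_val, Matrix.diagonal_apply_ne _ hij]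
  · intro h
    have hd : (g : Matrix (Fin (n + 1)) (Fin (n + 1)) F) = Matrix.diagonal fun i => (g : Matrix _ _ F) i i := by
      ext i j
      by_cases hij : i = j
      · rw [hij, Matrix.diagonal_apply_eq]
      · rw [h i j hij, Matrix.diagonal_apply_ne _ hij]
    have hdet : ∏ i, (g : Matrix (Fin (n + 1)) (Fin (n + 1)) F) i i ≠ 0 := by
      rw [← Matrix.det_diagonal, ← hd]
      exact (Matrix.isUnit_iff_isUnit_det _).1 g.isUnit |>.ne_zero
    refine ⟨fun i => Units.mk0 ((g : Matrix (Fin (n + 1)) (Fin (n + 1)) F) i i)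
      (Finset.prod_ne_zero_iff.1 hdet i (Finset.mem_univ i)), ?_⟩
    apply Units.ext
    rw [dgl_val]
    exact hd.symm

/-- monomial matrices permute the diagonal matrices -/
theorem mono_dgl {σ : Equiv.Perm (Fin (n + 1))} {g : SpecialLinearGroup (Fin (n + 1)) F} (hg : Mono σ g)
    (d : Fin (n + 1) → Fˣ) : SpecialLinearGroup.toGL g * dgl n F d = dgl n F (fun i => d (σ⁻¹ i)) * SpecialLinearGroup.toGL g := by
  apply Units.ext
  change (g : Matrix (Fin (n + 1)) (Fin (n + 1)) F) * Matrix.diagonal _ = Matrix.diagonal _ * (g : Matrix _ _ F)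
  ext i j
  rw [Matrix.mul_diagonal, Matrix.diagonal_mul]
  by_cases h0 : (g : Matrix (Fin (n + 1)) (Fin (n + 1)) F) i j = 0
  · rw [h0, zero_mul, mul_zero]
  · have h1 : i = σ j := hg i j h0
    rw [h1, mul_comm]
    simp

theorem mono_normalizer {σ : Equiv.Perm (Fin (n + 1))} {g : SpecialLinearGroup (Fin (n + 1)) F} (hg : Mono σ g) :
    SpecialLinearGroup.toGL g ∈ Subgroup.normalizer (TG n F : Set (GL (Fin (n + 1)) F)) := by
  rw [Subgroup.mem_normalizer_iff]
  intro t
  constructor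
  · rintro ⟨d, rfl⟩
    rw [mono_dgl hg, mul_inv_cancel_right]
    exact dgl_mem _
  · intro ht
    obtain ⟨d, hd⟩ := ht
    have h1 : t = (SpecialLinearGroup.toGL g)⁻¹ * dgl n F d * SpecialLinearGroup.toGL g := by
      rw [hd]; group
    have h2 := mono_dgl hg (fun i => d (σ i))
    have h3 : (fun i => (fun i => d (σ i)) (σ⁻¹ i)) = d := by
      funext i; simp
    rw [h3] at h2
    rw [h1, mul_assoc, ← h2, inv_mul_cancel_left]
    exact dgl_mem _

/-- diagonal matrices and transvections -/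
theorem dgl_tv (d : Fin (n + 1) → Fˣ) {a b : Fin (n + 1)} (hab : a ≠ b) (s : F) :
    dgl n F d * SpecialLinearGroup.toGL (tv a b s) =
      SpecialLinearGroup.toGL (tv a b ((d a : F) * s * ((d b)⁻¹ : Fˣ))) * dgl n F d := by
  apply Units.ext
  change Matrix.diagonal _ * (tv a b s).1 = (tv a b ((d a : F) * s * ((d b)⁻¹ : Fˣ))).1 * Matrix.diagonal _
  rw [tv_val hab, tv_val hab, mul_add, add_mul, mul_one, one_mul]
  congr 1
  ext i j
  rw [Matrix.mul_diagonal, Matrix.diagonal_mul, Matrix.single_apply, Matrix.single_apply]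
  by_cases h1 : a = i ∧ b = j
  · rw [if_pos h1, if_pos h1, ← h1.1, ← h1.2]
    rw [Units.val_inv_eq_inv_val]
    exact (inv_mul_cancel_right₀ (Units.ne_zero (d b)) _).symm
  · rw [if_neg h1, if_neg h1, mul_zero, zero_mul]

theorem card_TG [Finite F] {p : ℕ} [Fact p.Prime] [CharP F p] : (Nat.card (TG n F)).Coprime p := by
  have := Fintype.ofFinite F
  have h1 : Nat.card (TG n F) = (Nat.card F - 1) ^ (n + 1) := by
    rw [TG, ← Nat.card_congr (MonoidHom.ofInjective (dgl_injective (n := n) (F := F))).toEquiv, Nat.card_fun,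
      Nat.card_units, Nat.card_eq_fintype_card (α := Fin (n + 1)), Fintype.card_fin]
  rw [h1]
  apply Nat.Coprime.pow_left
  obtain ⟨k, -, hk⟩ := FiniteField.card F p
  have h2 : (Nat.card F - 1).Coprime (Nat.card F) := by
    have h3 : 1 ≤ Nat.card F := Nat.card_pos
    have h4 : Nat.card F = (Nat.card F - 1) + 1 := by omega
    rw [h4, Nat.add_sub_cancel]
    exact (Nat.coprime_self_add_right).2 (Nat.coprime_one_right _)
  refine Nat.Coprime.coprime_dvd_right ?_ h2
  rw [Nat.card_eq_fintype_card, hk]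
  exact dvd_pow_self p k.ne_zero

variable {W : Type*} [Group W] (cs : CoxeterSystem (cA n) W) {A : Fin n → Fin n → ℤ} (h : IsCartan (cA n) A)

theorem toGL_injective : Function.Injective (SpecialLinearGroup.toGL (n := Fin (n + 1)) (R := F)) := by
  intro a b e
  apply Subtype.ext
  exact congrArg (fun g : GL (Fin (n + 1)) F => (g : Matrix (Fin (n + 1)) (Fin (n + 1)) F)) e

/-- **The root group datum of `GL_{n+1}(F)`.** -/
theorem rgd_gl [Finite W] [Finite F] {p : ℕ} [Fact p.Prime] [CharP F p] :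
    RGD cs h p (TG n F) (fun i => SpecialLinearGroup.toGL (ns n F i))
      (fun x => (RGDTypeA.X F x).map SpecialLinearGroup.toGL) := by
  have h1 := rgd_map_of_ker_le_center (rgd (F := F) (p := p) cs h) (SpecialLinearGroup.toGL (n := Fin (n + 1)) (R := F))
    (by rw [(MonoidHom.ker_eq_bot_iff _).2 toGL_injective]; exact bot_le)
  refine rgd_torus h1 ?_ (fun i => mono_normalizer (mono_ns i)) ?_ card_TG
  · rintro _ ⟨t, ht, rfl⟩
    rw [mem_TG]
    intro i j hij
    by_contra h2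
    exact hij ((mem_T.1 ht) i j h2)
  · rintro x hx _ ⟨d, rfl⟩
    obtain ⟨a, b, hab, rfl⟩ := exists_of_isRoot cs h hx
    have h2 : ∀ d : Fin (n + 1) → Fˣ, cj (dgl n F d) ((RGDTypeA.X F (rtA a b)).map SpecialLinearGroup.toGL) ≤
        (RGDTypeA.X F (rtA a b)).map SpecialLinearGroup.toGL := by
      intro d
      rw [X_rtA hab]
      rintro _ ⟨_, ⟨_, ⟨s, rfl⟩, rfl⟩, rfl⟩
      refine ⟨tv a b ((d a : F) * s * ((d b)⁻¹ : Fˣ)), ⟨_, rfl⟩, ?_⟩
      change _ = dgl n F d * SpecialLinearGroup.toGL (tv a b s) * (dgl n F d)⁻¹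
      rw [dgl_tv d hab, mul_inv_cancel_right]
    refine le_antisymm (h2 d) ?_
    have h3 := cj_mono (dgl n F d) (h2 d⁻¹)
    rwa [map_inv, cj_cj_inv] at h3

/-- **The root groups and the torus generate `GL_{n+1}(F)`.** -/
theorem GG_gl : GG cs h (TG n F) (fun x => (RGDTypeA.X F x).map SpecialLinearGroup.toGL) = ⊤ := by
  rw [eq_top_iff]
  intro g _
  have h1 : (SpecialLinearGroup.toGL (n := Fin (n + 1)) (R := F)).range ≤
      GG cs h (TG n F) (fun x => (RGDTypeA.X F x).map SpecialLinearGroup.toGL) := by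
    have h2 := G1_map cs h (RGDTypeA.X F) (SpecialLinearGroup.toGL (n := Fin (n + 1)) (R := F))
    rw [G1_eq_top, ← MonoidHom.range_eq_map] at h2
    rw [← h2]
    exact le_sup_right
  let d : Fin (n + 1) → Fˣ := fun i => if i = 0 then GeneralLinearGroup.det g else 1
  have hd : GeneralLinearGroup.det (dgl n F d) = GeneralLinearGroup.det g := by
    apply Units.ext
    change (Matrix.diagonal fun i => (d i : F)).det = _
    rw [Matrix.det_diagonal, Finset.prod_eq_single 0]
    · simp [d]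
    · intro i _ hi
      simp [d, hi]
    · intro h0
      exact absurd (Finset.mem_univ _) h0
  have h3 : (dgl n F d)⁻¹ * g ∈ (SpecialLinearGroup.toGL (n := Fin (n + 1)) (R := F)).range := by
    have h4 : GeneralLinearGroup.det ((dgl n F d)⁻¹ * g) = 1 := by
      rw [map_mul, map_inv, hd, inv_mul_cancel]
    refine ⟨⟨((dgl n F d)⁻¹ * g : GL (Fin (n + 1)) F), congrArg Units.val h4⟩, Units.ext rfl⟩
  have h5 := mul_mem (le_sup_left (a := TG n F) (dgl_mem d)) (h1 h3)
  rwa [mul_inv_cancel_left] at h5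

end gl

end Cfsg.Agent.H71.QE
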