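import Cfsg.Agent.H71.QE.GLPerm
import Cfsg.Agent.H183.OutPSL
import Cfsg.Agent.H299.K4.Orb
import Cfsg.Agent.CharactersDeep.IndFun
import Cfsg.Agent.Characters.Linear

/-!
# S4547, task QE7 (helper71): the principal series character of `GL_3(F)` attached to a cubic character

`RR ζ` : induced from the character `diag d ↦ ζ (d 0) ζ (d 2)⁻¹` of the Borel subgroup, `ζ ^ 3 = 1`, `ζ ≠ 1`.
-/

set_option autoImplicit false
set_option linter.unusedSectionVars false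

open scoped ComplexConjugate

namespace Cfsg.Agent.H71.QE

open Cfsg Matrix CoxeterSystem Cfsg.Agent.ChevalleyStructure.CoxeterGeom Cfsg.Agent.Tits.Roots Cfsg.Agent.Tits.Core
open Cfsg.Agent.Nodes Cfsg.Agent.Nodes.Reps Cfsg.Agent.Nodes.BNOf Cfsg.Agent.Nodes.RGDLib Cfsg.Agent.Nodes.RootsA
  Cfsg.Agent.Nodes.RGDTypeA Cfsg.Agent.Nodes.Bruhat
open Cfsg.Agent.LieRecognition.BNCox (cA)
open Cfsg.Agent.Characters Cfsg.Agent.H726.Four Cfsg.Agent.H967.K4 Cfsg.Agent.OddOrderCharacters.Clifford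
open Cfsg.Agent.TitsThree.KSideA (tv tv_of_ne tv_add tv_zero tv_neg)

universe u

/-! ### induced functions and automorphisms -/

section aut

variable {G : Type u} [Group G] [Fintype G] {p : ℕ} {B T : Subgroup G} {c : B →* T} {W : Type*} [Group W] {g : W → G}

theorem R_aut (h : TS p B T c g) (α : MulAut G) (hB : ∀ x, α x ∈ B ↔ x ∈ B) (hT : ∀ t ∈ T, α t ∈ T) (θ θ' : T → ℂ)
    (hθ : ∀ t : T, θ ⟨α t, hT t t.2⟩ = θ' t) (x : G) : TS.R c θ (α x) = TS.R c θ' x := by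
  unfold TS.R
  rw [S0150.indFun_apply, S0150.indFun_apply]
  congr 1
  refine (Fintype.sum_bijective α α.bijective _ _ fun y => ?_).symm
  rw [show (α y)⁻¹ * α x * α y = α (y⁻¹ * x * y) by simp]
  by_cases hz : y⁻¹ * x * y ∈ B
  · rw [ext_apply_mem B _ _ hz, ext_apply_mem B _ _ ((hB _).2 hz)]
    have h1 := h.sep_aut α hT hz ((hB _).2 hz)
    change θ' (c _) = θ (c _)
    rw [← hθ]
    congr 1
    exact Subtype.ext h1.symm
  · rw [ext_apply_not_mem B _ _ hz, ext_apply_not_mem B _ _ (fun h2 => hz ((hB _).1 h2))]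

end aut

section ser

variable {F : Type u} [Field F] [Finite F] [CharP F 2]

/-- the Coxeter system of type `A_2` -/
abbrev csA : CoxeterSystem (cA 2) (cA 2).Group := (cA 2).toCoxeterSystem

instance finA : Finite (cA 2).Group := finite_W csA (isCartan 2)

variable (F) in
/-- the Borel subgroup of `GL_3(F)` -/
noncomputable abbrev BG : Subgroup (GL (Fin 3) F) :=
  RGD.B csA (isCartan 2) (TG 2 F) (fun x => (RGDTypeA.X F x).map SpecialLinearGroup.toGL)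

variable (F) in
theorem rgG : RGD csA (isCartan 2) 2 (TG 2 F) (fun i => SpecialLinearGroup.toGL (ns 2 F i))
    (fun x => (RGDTypeA.X F x).map SpecialLinearGroup.toGL) := rgd_gl (F := F) (p := 2) csA (isCartan 2)

variable (F) in
/-- the projection on the torus -/
noncomputable def cG : BG F →* TG 2 F := (exists_ts (rgG F) (GG_gl _ _)).choose

variable (F) in
theorem tsG : TS 2 (BG F) (TG 2 F) (cG F) (gw (rgG F)) := (exists_ts (rgG F) (GG_gl _ _)).choose_spec.1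

theorem cG_mul (u : GL (Fin 3) F) (hu : u ∈ RGD.Sup (fun x => (RGDTypeA.X F x).map SpecialLinearGroup.toGL)
    (RGD.Pos csA (isCartan 2))) (t : TG 2 F) (hut : u * t ∈ BG F) : cG F ⟨u * t, hut⟩ = t :=
  (exists_ts (rgG F) (GG_gl _ _)).choose_spec.2 u hu t hut

theorem exists_dgl (t : TG 2 F) : ∃ d, t = ⟨dgl 2 F d, dgl_mem d⟩ := by
  obtain ⟨t, ht⟩ := t
  obtain ⟨d, rfl⟩ := id ht
  exact ⟨d, rfl⟩

/-- the linear characters as functions -/
noncomputable def lamC (ζ : Fˣ →* ℂˣ) (v : Fin 3 → ℤ) : TG 2 F → ℂ := fun t => (lam ζ v t : ℂ)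

theorem isIrr_lamC (ζ : Fˣ →* ℂˣ) (v : Fin 3 → ℤ) : IsIrrCharacter (TG 2 F) (lamC ζ v) :=
  Linear.isIrrCharacter_hom (lam ζ v)

theorem act_lamC (ζ : Fˣ →* ℂˣ) (v : Fin 3 → ℤ) (w : (cA 2).Group) :
    (tsG F).act w (lamC ζ v) = lamC ζ (fun i => v ((pm csA (isCartan 2) F w)⁻¹ i)) := by
  funext t
  obtain ⟨d, rfl⟩ := exists_dgl t
  rw [TS.act_apply]
  have h1 := pm_rp csA (isCartan 2) (gw_rp (rgG F) w) d
  have h2 : cT (TG 2 F) (gw (rgG F) w) ((tsG F).norm w) ⟨dgl 2 F d, dgl_mem d⟩ =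
      ⟨dgl 2 F (fun i => d (pm csA (isCartan 2) F w i)), dgl_mem _⟩ := Subtype.ext h1
  rw [h2]
  unfold lamC
  rw [lam_dgl, lam_dgl]
  congr 1
  refine Eq.trans ?_ (Equiv.prod_comp (pm csA (isCartan 2) F w)
    (fun j => ζ (d j) ^ v ((pm csA (isCartan 2) F w)⁻¹ j)))
  refine Finset.prod_congr rfl fun i _ => ?_
  have h3 : (pm csA (isCartan 2) F w)⁻¹ (pm csA (isCartan 2) F w i) = i :=
    (pm csA (isCartan 2) F w).symm_apply_apply i
  simp only [h3]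

theorem lamC_congr {ζ : Fˣ →* ℂˣ} (hζ : ∀ x, ζ x ^ 3 = 1) {v v' : Fin 3 → ℤ} (hv : ∀ i, (3 : ℤ) ∣ v i - v' i) :
    lamC ζ v = lamC ζ v' := by
  funext t
  obtain ⟨d, rfl⟩ := exists_dgl t
  unfold lamC
  rw [lam_dgl, lam_dgl]
  congr 1
  refine Finset.prod_congr rfl fun i _ => ?_
  obtain ⟨k, hk⟩ := hv i
  rw [show v i = v' i + 3 * k by omega, _root_.zpow_add, _root_.zpow_mul, show (3 : ℤ) = ((3 : ℕ) : ℤ) from rfl,
    _root_.zpow_natCast, hζ, _root_.one_zpow, mul_one]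

theorem lamC_inj {ζ : Fˣ →* ℂˣ} (hζ : ∀ x, ζ x ^ 3 = 1) {x₀ : Fˣ} (hx₀ : ζ x₀ ≠ 1) {v v' : Fin 3 → ℤ}
    (h : lamC ζ v = lamC ζ v') (i : Fin 3) : (3 : ℤ) ∣ v i - v' i := by
  have h1 := congrFun h ⟨dgl 2 F (Pi.mulSingle i x₀), dgl_mem _⟩
  unfold lamC at h1
  rw [lam_dgl, lam_dgl] at h1
  have h2 : ∀ v : Fin 3 → ℤ, ∏ j, ζ ((Pi.mulSingle i x₀ : Fin 3 → Fˣ) j) ^ v j = ζ x₀ ^ v i := by
    intro v
    rw [Finset.prod_eq_single i]
    · rw [Pi.mulSingle_eq_same]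
    · intro j _ hj
      rw [Pi.mulSingle_eq_of_ne hj, map_one, _root_.one_zpow]
    · intro hi
      exact absurd (Finset.mem_univ i) hi
  have h3 : ζ x₀ ^ v i = ζ x₀ ^ v' i := Units.ext (by rw [← h2 v, ← h2 v']; exact h1)
  have h4 : ζ x₀ ^ (v i - v' i) = 1 := by rw [_root_.zpow_sub, h3, mul_inv_cancel]
  have h5 : orderOf (ζ x₀) = 3 := orderOf_eq_prime (hζ x₀) hx₀
  have h6 := orderOf_dvd_iff_zpow_eq_one.2 h4
  rwa [h5] at h6

/-- the exponents `(1, 0, -1)` -/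
def v0 : Fin 3 → ℤ := ![1, 0, -1]

variable [Fintype (GL (Fin 3) F)]

/-- the principal series character -/
noncomputable def RR (ζ : Fˣ →* ℂˣ) : GL (Fin 3) F → ℂ := TS.R (cG F) (lamC ζ v0)

theorem RR_inner {ζ : Fˣ →* ℂˣ} (hζ : ∀ x, ζ x ^ 3 = 1) {x₀ : Fˣ} (hx₀ : ζ x₀ ≠ 1) :
    classInner (RR ζ) (RR ζ) = 1 := by
  classical
  have := Fintype.ofFinite (cA 2).Group
  unfold RR
  rw [(tsG F).inner (isIrr_lamC ζ v0) (isIrr_lamC ζ v0)]
  have h1 : (Finset.univ.filter fun w : (cA 2).Group => lamC ζ v0 = (tsG F).act w (lamC ζ v0)) = {1} := by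
    ext w
    rw [Finset.mem_filter, Finset.mem_singleton]
    constructor
    · rintro ⟨-, hw⟩
      rw [act_lamC] at hw
      apply pm_eq_one csA (isCartan 2) (F := F)
      have h2 := fun i => lamC_inj hζ hx₀ hw i
      have key : ∀ σ : Equiv.Perm (Fin 3), (∀ i, (3 : ℤ) ∣ v0 i - v0 (σ⁻¹ i)) → σ = 1 := by decide
      exact key _ h2
    · rintro rfl
      refine ⟨Finset.mem_univ _, ?_⟩
      rw [(tsG F).act_one (Core.isIrr_isClassFunction (isIrr_lamC ζ v0))]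
  rw [h1, Finset.card_singleton, Nat.cast_one]

theorem RR_isCharacter (ζ : Fˣ →* ℂˣ) : IsCharacter (GL (Fin 3) F) (RR ζ) := by
  refine CharactersDeep.IndFun.isCharacter_indFun _ ?_
  exact Core.isIrr_isCharacter (Core.isIrr_comp _ (tsG F).surj (isIrr_lamC ζ v0))

theorem RR_isIrr {ζ : Fˣ →* ℂˣ} (hζ : ∀ x, ζ x ^ 3 = 1) {x₀ : Fˣ} (hx₀ : ζ x₀ ≠ 1) :
    IsIrrCharacter (GL (Fin 3) F) (RR ζ) :=
  Core.isIrr_of_classInner_self (RR_isCharacter ζ) (RR_inner hζ hx₀)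

theorem RR_act (ζ : Fˣ →* ℂˣ) (σ : Equiv.Perm (Fin 3)) :
    TS.R (cG F) (lamC ζ (fun i => v0 (σ i))) = RR ζ := by
  obtain ⟨w, hw⟩ := pm_surj csA (isCartan 2) (F := F) (by norm_num) σ⁻¹
  have h1 := (tsG F).R_act (isIrr_lamC ζ v0) w
  rw [act_lamC, hw, inv_inv] at h1
  exact h1

theorem U_le : RGD.Sup (fun x => (RGDTypeA.X F x).map SpecialLinearGroup.toGL) (RGD.Pos csA (isCartan 2)) ≤
    (SpecialLinearGroup.toGL (n := Fin 3) (R := F)).range :=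
  RGD.Sup_le fun _ _ => Subgroup.map_le_range _ _

theorem det_toGL (s : SpecialLinearGroup (Fin 3) F) : GeneralLinearGroup.det (SpecialLinearGroup.toGL s) = 1 :=
  Units.ext s.2

theorem exists_ut {b : GL (Fin 3) F} (hb : b ∈ BG F) :
    ∃ u ∈ RGD.Sup (fun x => (RGDTypeA.X F x).map SpecialLinearGroup.toGL) (RGD.Pos csA (isCartan 2)),
      ∃ t ∈ TG 2 F, b = u * t := by
  have h1 : BG F ≤ RGD.Sup (fun x => (RGDTypeA.X F x).map SpecialLinearGroup.toGL) (RGD.Pos csA (isCartan 2)) ⊔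
      TG 2 F := by
    rw [sup_comm]
    exact le_rfl
  exact H967.K4.mem_sup _ _ (rgG F).T_le_normalizer_U (h1 hb)

theorem det_cG (b : BG F) : GeneralLinearGroup.det ((cG F b : TG 2 F) : GL (Fin 3) F) =
    GeneralLinearGroup.det (b : GL (Fin 3) F) := by
  obtain ⟨b, hb⟩ := b
  obtain ⟨u, hu, t, ht, rfl⟩ := exists_ut hb
  have h1 := cG_mul u hu ⟨t, ht⟩ hb
  rw [h1]
  obtain ⟨s, rfl⟩ := U_le hu
  rw [map_mul, det_toGL, one_mul]

theorem RR_eps {ζ : Fˣ →* ℂˣ} (hζ : ∀ x, ζ x ^ 3 = 1) (g : GL (Fin 3) F) :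
    RR ζ g * (ζ (GeneralLinearGroup.det g) : ℂ) = RR ζ g := by
  obtain ⟨σ, hσ⟩ : ∃ σ : Equiv.Perm (Fin 3), ∀ i, (3 : ℤ) ∣ v0 i + 1 - v0 (σ i) := by decide
  have h1 : RR ζ = TS.R (cG F) (lamC ζ (fun i => v0 i + 1)) := by
    rw [← RR_act ζ σ, lamC_congr hζ hσ]
  let ε : GL (Fin 3) F → ℂ := fun g => (ζ (GeneralLinearGroup.det g) : ℂ)
  have hε : IsClassFunction (GL (Fin 3) F) ε := by
    intro x y
    simp only [ε]
    have h0 : GeneralLinearGroup.det (y * x * y⁻¹) = GeneralLinearGroup.det x := by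
      rw [map_mul, map_mul, map_inv, mul_comm (GeneralLinearGroup.det y), mul_inv_cancel_right]
    rw [h0]
  have h2 := CharactersDeep.IndFun.indFun_mul (BG F) (lamC ζ v0 ∘ cG F) ε hε
  have h3 : (fun b : BG F => (lamC ζ v0 ∘ cG F) b * ε b) = lamC ζ (fun i => v0 i + 1) ∘ cG F := by
    funext b
    simp only [Function.comp_apply, ε]
    rw [← det_cG b]
    obtain ⟨d, hd⟩ := exists_dgl (cG F b)
    rw [hd]
    unfold lamC
    rw [lam_dgl, lam_dgl]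
    have h4 : GeneralLinearGroup.det (dgl 2 F d) = ∏ i, d i := by
      apply Units.ext
      change (Matrix.diagonal fun i => (d i : F)).det = _
      rw [Matrix.det_diagonal, Units.coe_prod]
    change ((∏ i, ζ (d i) ^ v0 i : ℂˣ) : ℂ) * (ζ (GeneralLinearGroup.det (dgl 2 F d)) : ℂ) = _
    rw [h4, map_prod, ← Units.val_mul, ← Finset.prod_mul_distrib]
    congr 1
    refine Finset.prod_congr rfl fun i _ => ?_
    rw [_root_.zpow_add_one]
  have h5 := congrFun h2 g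
  rw [h3] at h5
  rw [Pi.mul_apply] at h5
  change RR ζ g * (ζ (GeneralLinearGroup.det g) : ℂ) = TS.R (cG F) (lamC ζ (fun i => v0 i + 1)) g at h5
  rw [h5, ← h1]

theorem RR_one (ζ : Fˣ →* ℂˣ) : RR ζ 1 = ((BG F).index : ℂ) := by
  unfold RR TS.R
  rw [CharactersDeep.NormalInd.indFun_one]
  simp [lamC]

theorem odd_index_BG : Odd (BG F).index := H967.K4.odd_index_of_le (rgG F) (GG_gl _ _) le_sup_right

theorem RR_sf (ζ : Fˣ →* ℂˣ) : SF (RR ζ) := by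
  refine SF.ind ?_
  refine SF.comp (cG F) (SF.of_odd ?_ _)
  rw [← Nat.coprime_two_right]
  exact (rgG F).tcop

/-- elements without conjugates in the Borel subgroup -/
theorem RR_zero (ζ : Fˣ →* ℂˣ) {g : GL (Fin 3) F} {ℓ : ℕ} (hℓ : ℓ.Prime) (hg : orderOf g = ℓ) (h2 : ℓ ≠ 2)
    (hT : ¬ ℓ ∣ Nat.card (TG 2 F)) : RR ζ g = 0 := by
  unfold RR TS.R
  rw [S0150.indFun_apply, Finset.sum_eq_zero, mul_zero]
  intro x _
  apply ext_apply_not_mem
  intro hb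
  have ho : orderOf (x⁻¹ * g * x) = ℓ := by
    rw [← hg]
    have := MulEquiv.orderOf_eq (MulAut.conj x⁻¹) g
    rwa [MulAut.conj_apply, inv_inv] at this
  have h3 : cG F ⟨_, hb⟩ = 1 := by
    rw [← orderOf_eq_one_iff]
    have h4 : orderOf (cG F ⟨_, hb⟩) ∣ ℓ := by
      rw [← ho, ← Subgroup.orderOf_mk _ hb]
      exact orderOf_map_dvd _ _
    rcases (Nat.dvd_prime hℓ).1 h4 with h5 | h5
    · exact h5
    · exfalso
      apply hT
      rw [← h5]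
      exact orderOf_dvd_natCard _
  obtain ⟨k, hk⟩ := (tsG F).ker _ h3
  have h4 : ℓ ∣ 2 ^ k := by
    rw [← ho]
    exact orderOf_dvd_of_pow_eq_one hk
  exact h2 ((Nat.prime_dvd_prime_iff_eq hℓ Nat.prime_two).1 (hℓ.dvd_of_dvd_pow h4))

theorem RR_class (ζ : Fˣ →* ℂˣ) (x g : GL (Fin 3) F) : RR ζ (x * g * x⁻¹) = RR ζ g :=
  Core.isCharacter_isClassFunction (RR_isCharacter ζ) g x

/-- scalar matrices -/
theorem RR_scalar (ζ : Fˣ →* ℂˣ) (a : Fˣ) (g : GL (Fin 3) F) : RR ζ (dgl 2 F (fun _ => a) * g) = RR ζ g := by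
  have hz : ∀ x : GL (Fin 3) F, dgl 2 F (fun _ => a) * x = x * dgl 2 F (fun _ => a) := by
    intro x
    apply Units.ext
    change Matrix.diagonal (fun _ => (a : F)) * (x : Matrix (Fin 3) (Fin 3) F) = _ * Matrix.diagonal (fun _ => (a : F))
    ext i j
    rw [Matrix.diagonal_mul, Matrix.mul_diagonal, mul_comm]
  unfold RR TS.R
  rw [S0150.indFun_apply, S0150.indFun_apply]
  congr 1
  refine Finset.sum_congr rfl fun x _ => ?_
  have e : x⁻¹ * (dgl 2 F (fun _ => a) * g) * x = dgl 2 F (fun _ => a) * (x⁻¹ * g * x) := by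
    rw [← mul_assoc, ← hz x⁻¹]
    group
  rw [e]
  have hzB : dgl 2 F (fun _ => a) ∈ BG F := (tsG F).le (dgl_mem _)
  by_cases hb : x⁻¹ * g * x ∈ BG F
  · rw [ext_apply_mem _ _ _ (mul_mem hzB hb), ext_apply_mem _ _ _ hb]
    have e2 : (⟨dgl 2 F (fun _ => a) * (x⁻¹ * g * x), mul_mem hzB hb⟩ : BG F) =
        ⟨dgl 2 F (fun _ => a), hzB⟩ * ⟨x⁻¹ * g * x, hb⟩ := rfl
    rw [e2]
    change lamC ζ v0 (cG F _) = lamC ζ v0 (cG F _)
    rw [map_mul, (tsG F).ret _ (dgl_mem _)]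
    unfold lamC
    rw [map_mul, lam_dgl]
    have h1 : ∏ i, ζ a ^ v0 i = 1 := by
      rw [Fin.prod_univ_three]
      simp [v0]
    rw [h1, one_mul]
  · rw [ext_apply_not_mem _ _ _ hb, ext_apply_not_mem _ _ _ (fun h1 => hb ?_)]
    have := mul_mem (inv_mem hzB) h1
    rwa [inv_mul_cancel_left] at this

end ser

end Cfsg.Agent.H71.QE
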