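import Cfsg.Agent.H71.QE.Shape
import Cfsg.Agent.H71.QE.Four
import Cfsg.Agent.H151.K547.Psl3Gen

/-!
# S4547, task QE7 (helper71): `PSL_3(F)`, `|F| = 2 ^ f ≥ 4`, the automorphisms reversing the diagram

* `psl3_swap` : `GInv3 β` (the case `n = 2` of `EvenSmall.psl_swap`).
-/

set_option autoImplicit false
set_option linter.unusedSectionVars false

namespace Cfsg.Agent.H71.QE

open Cfsg Matrix Cfsg.Agent.ClassicalGeometry.AutPSL.Auto Cfsg.Agent.H307.QE Cfsg.Agent.H821.K547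
  Cfsg.Agent.H42.K547.Even

theorem twoC_psl3 {F : Type} [Field F] [Fintype F] [CharP F 2] :
    H601.OddDeg.TwoC (Matrix.ProjectiveSpecialLinearGroup (Fin 3) F) := by
  have hfin : Finite (Matrix.ProjectiveSpecialLinearGroup (Fin 3) F) := Quotient.finite _
  have hsim : IsSimpleGroup (Matrix.ProjectiveSpecialLinearGroup (Fin 3) F) := Cfsg.Agent.S0249.result 3 (by omega)
  have hL : IsLieTypeChar 2 (Matrix.ProjectiveSpecialLinearGroup (Fin 3) F) :=
    Or.inl ⟨F, inferInstance, inferInstance, inferInstance, 3, by norm_num, fun h => absurd h (by norm_num),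
      ⟨MulEquiv.refl _⟩⟩
  exact H742.TwoC.twoC_charTwo hL

/-- **QE7** -/
theorem psl3_swap {F : Type} [Field F] [Fintype F] [CharP F 2] (h4 : 4 ≤ Fintype.card F)
    {β : MulAut (Matrix.ProjectiveSpecialLinearGroup (Fin 3) F)} {σ : Equiv.Perm (Fin 2)} (hN : Nrm (rA 2 F) β σ)
    (hσ : σ ≠ 1) : GInv3 β := by
  have hT := twoC_psl3 (F := F)
  obtain ⟨φ, A, hβ, hA⟩ := psl3_shape hN hσ
  have hd := shape_dg hβ hA
  obtain ⟨k, hk⟩ := hN.pow
  have h4' : 4 ≤ Nat.card F := by rwa [Nat.card_eq_fintype_card]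
  rcases field_cases h4' φ ⟨k, shape_pow hd hk⟩ with h | h | h
  · exact gInv3_four hT h.1 hN.pow h.2 hβ
  · obtain ⟨ζ, hζ, x₀, hx₀⟩ := exists_zeta h.1
    exact gInv3_cube hT hN.pow hβ hζ hx₀ h.2
  · obtain ⟨x, y, hx0, hx1, hy0, hy1, hxy, hxy', hx, hy⟩ := h
    refine H151.K547.Psl3.psl3_generic hN φ (fun x y hxy => ?_) hx0 hx1 hy0 hy1 hxy hxy' hx hy
    have h1 := hd x
    rwa [show Units.map (φ : F →* F) x = y from Units.ext hxy] at h1

end Cfsg.Agent.H71.QE
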