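import Cfsg.Agent.H71.QE.Split
import Cfsg.Agent.H71.QE.FieldCases
import Cfsg.Agent.H42.K547.EvenDefs
import Cfsg.Agent.H507.K4.SizeA
import Cfsg.Agent.ClassicalGeometry.AutPSL.Main

/-!
# S4547, task QE7 (helper71): the shape of the normalised automorphisms of `PSL_3(F)` reversing the diagram

* `psl3_shape` : `β = lift (cj A * fld φ * itr)` with `A` antidiagonal.
-/

set_option autoImplicit false
set_option linter.unusedSectionVars false

namespace Cfsg.Agent.H71.QE

open Cfsg Matrix CoxeterSystem Cfsg.Agent.ChevalleyStructure.CoxeterGeom Cfsg.Agent.Tits.Roots Cfsg.Agent.Tits.Core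
open Cfsg.Agent.Nodes Cfsg.Agent.Nodes.RGDTypeA
open Cfsg.Agent.TitsThree.KSideA (tv tv_of_ne tv_add tv_zero tv_neg)
open Cfsg.Agent.LieRecognition.BNCox (cA)
open Cfsg.Agent.ClassicalGeometry.AutPSL.Auto (cj fld itr lift lift_pr coe_cj coe_fld_apply)
open Cfsg.Agent.H307.QE Cfsg.Agent.H821.K547 Cfsg.Agent.H42.K547.Even

universe u

variable {F : Type u} [Field F] [CharP F 2]

theorem tv_sq (a b : Fin 3) (t : F) : tv a b t * tv a b t = 1 := by
  rw [← tv_add, CharTwo.add_self_eq_zero, tv_zero]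

theorem eq_of_pr {M M' : SpecialLinearGroup (Fin 3) F} (h : RGDTypeA.pr 2 F M = RGDTypeA.pr 2 F M') (h1 : M * M = 1)
    (h2 : M' * M' = 1) : M = M' := by
  obtain ⟨a, ha⟩ := exists_scalar (F := F) h
  have h3 : SpecialLinearGroup.toGL M' * SpecialLinearGroup.toGL M' = dgl 2 F (fun _ => a) * dgl 2 F (fun _ => a) := by
    rw [ha]
    calc dgl 2 F (fun _ => a) * SpecialLinearGroup.toGL M * (dgl 2 F (fun _ => a) * SpecialLinearGroup.toGL M)
        = dgl 2 F (fun _ => a) * (SpecialLinearGroup.toGL M * dgl 2 F (fun _ => a)) * SpecialLinearGroup.toGL M := by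
          group
      _ = dgl 2 F (fun _ => a) * dgl 2 F (fun _ => a) * (SpecialLinearGroup.toGL M * SpecialLinearGroup.toGL M) := by
          rw [← dgl_scalar_comm a (SpecialLinearGroup.toGL M)]
          group
      _ = _ := by rw [← map_mul SpecialLinearGroup.toGL, h1, map_one, mul_one]
  rw [← map_mul SpecialLinearGroup.toGL, h2, map_one, ← map_mul] at h3
  have h4 : (fun _ => a) * (fun _ => a) = (1 : Fin 3 → Fˣ) :=
    dgl_injective (n := 2) (F := F) (h3.symm.trans (map_one (dgl 2 F)).symm)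
  have h5 : (1 : Fˣ) = a * a := (congrFun h4 0).symm
  have h6 : (a : F) = 1 := sq_one (congrArg Units.val h5.symm)
  have h7 : a = 1 := Units.ext h6
  have h8 : dgl 2 F (fun _ => a) = 1 := by
    rw [h7]
    exact map_one _
  rw [h8, one_mul] at ha
  exact (toGL_injective (n := 2) (F := F) ha).symm

/-- the entries of `A` -/
theorem ent {A : GL (Fin 3) F} {a b c d : Fin 3} (hab : a ≠ b) (hcd : c ≠ d) {t : F} (ht : t ≠ 0)
    (h : RGDTypeA.pr 2 F (cj A (tv a b t)) ∈ (XX F c d).map (RGDTypeA.pr 2 F)) :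
    (∀ i, i ≠ c → (A : Matrix (Fin 3) (Fin 3) F) i a = 0) ∧ ∀ j, j ≠ b → (A : Matrix (Fin 3) (Fin 3) F) d j = 0 := by
  obtain ⟨_, ⟨s, rfl⟩, hs⟩ := h
  have h1 : tv c d s = cj A (tv a b t) :=
    eq_of_pr hs (tv_sq c d s) (by rw [← map_mul, tv_sq, map_one])
  have h2 : (1 + single c d s) * (A : Matrix (Fin 3) (Fin 3) F) = (A : Matrix (Fin 3) (Fin 3) F) * (1 + single a b t) := by
    have h3 := congrArg (fun g : SpecialLinearGroup (Fin 3) F => (g : Matrix (Fin 3) (Fin 3) F) *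
      (A : Matrix (Fin 3) (Fin 3) F)) h1
    change (tv c d s).1 * _ = (cj A (tv a b t) : Matrix (Fin 3) (Fin 3) F) * _ at h3
    rw [coe_cj, tv_val hcd, tv_val hab, mul_assoc (_ * _), ← Units.val_mul, inv_mul_cancel, Units.val_one,
      mul_one] at h3
    exact h3
  rw [add_mul, one_mul, mul_add, mul_one, add_right_inj] at h2
  have hent : ∀ i j, (if i = c then s * (A : Matrix (Fin 3) (Fin 3) F) d j else 0) =
      if j = b then (A : Matrix (Fin 3) (Fin 3) F) i a * t else 0 := by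
    intro i j
    have h3 := congrFun (congrFun h2 i) j
    by_cases hi : i = c
    · by_cases hj : j = b
      · subst hi hj
        rw [if_pos rfl, if_pos rfl]
        simpa using h3
      · subst hi
        rw [if_pos rfl, if_neg hj]
        rw [Matrix.mul_single_apply_of_ne _ _ _ _ _ hj] at h3
        simpa using h3
    · by_cases hj : j = b
      · subst hj
        rw [if_neg hi, if_pos rfl]
        rw [Matrix.single_mul_apply_of_ne _ _ _ _ _ hi] at h3
        simpa using h3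
      · rw [if_neg hi, if_neg hj]
  have hA : ∃ i, (A : Matrix (Fin 3) (Fin 3) F) i a ≠ 0 := by
    by_contra hcon
    push Not at hcon
    have h3 : (A : Matrix (Fin 3) (Fin 3) F).det = 0 := Matrix.det_eq_zero_of_column_eq_zero a hcon
    exact (GeneralLinearGroup.det A).ne_zero h3
  have hs0 : s ≠ 0 := by
    rintro rfl
    obtain ⟨i, hi⟩ := hA
    have h3 := hent i b
    rw [if_pos rfl, zero_mul, ite_self] at h3
    exact mul_ne_zero hi ht h3.symm
  refine ⟨fun i hi => ?_, fun j hj => ?_⟩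
  · have h3 := hent i b
    rw [if_neg hi, if_pos rfl] at h3
    exact (mul_eq_zero.1 h3.symm).resolve_right ht
  · have h3 := hent c j
    rw [if_pos rfl, if_neg hj] at h3
    exact (mul_eq_zero.1 h3).resolve_left hs0

theorem perm_two {σ : Equiv.Perm (Fin 2)} (hσ : σ ≠ 1) : σ 0 = 1 ∧ σ 1 = 0 := by
  revert σ
  decide

section shape

variable {F : Type} [Field F] [CharP F 2] [Finite F] {β : MulAut (Matrix.ProjectiveSpecialLinearGroup (Fin 3) F)}
  {σ : Equiv.Perm (Fin 2)}

theorem nrm_pos (hN : Nrm (rA 2 F) β σ) (i j : Fin 2) (hij : σ i = j) (t : F) :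
    β (RGDTypeA.pr 2 F (tv i.castSucc i.succ t)) ∈ (XX F j.castSucc j.succ).map (RGDTypeA.pr 2 F) := by
  subst hij
  have h1 := (hN.diag.pos i (RGDTypeA.pr 2 F (tv i.castSucc i.succ t))).2
  rw [X_sr, X_sr] at h1
  exact h1 ⟨_, tv_mem_XX _ _ _, rfl⟩

theorem nrm_neg (hN : Nrm (rA 2 F) β σ) (i j : Fin 2) (hij : σ i = j) (t : F) :
    β (RGDTypeA.pr 2 F (tv i.succ i.castSucc t)) ∈ (XX F j.succ j.castSucc).map (RGDTypeA.pr 2 F) := by
  subst hij
  have h1 := (hN.diag.neg i (RGDTypeA.pr 2 F (tv i.succ i.castSucc t))).2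
  rw [X_neg_sr, X_neg_sr] at h1
  exact h1 ⟨_, tv_mem_XX _ _ _, rfl⟩

theorem fld_tv (φ : F ≃+* F) {a b : Fin 3} (hab : a ≠ b) (t : F) :
    fld φ (tv a b t) = tv a b (φ t) := by
  apply Subtype.ext
  ext i j
  rw [coe_fld_apply]
  rw [tv_val hab, tv_val hab, Matrix.add_apply, Matrix.add_apply, map_add]
  congr 1
  · rw [Matrix.one_apply]
    split_ifs <;> simp
  · rw [Matrix.single_apply, Matrix.single_apply]
    split_ifs <;> simp

theorem itr_tv {a b : Fin 3} (hab : a ≠ b) (t : F) :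
    itr (tv a b t) = (tv b a t : SpecialLinearGroup (Fin 3) F) := by
  have h1 : (tv a b t : SpecialLinearGroup (Fin 3) F)⁻¹ = tv a b t := inv_eq_of_mul_eq_one_right (tv_sq a b t)
  apply Subtype.ext
  change ((tv a b t : SpecialLinearGroup (Fin 3) F)⁻¹).1ᵀ = _
  rw [h1, tv_val hab, tv_val hab.symm, Matrix.transpose_add, Matrix.transpose_one, Matrix.transpose_single]

/-- **The shape of `β`** -/
theorem psl3_shape (hN : Nrm (rA 2 F) β σ) (hσ : σ ≠ 1) :
    ∃ (φ : F ≃+* F) (A : GL (Fin 3) F), β = lift (cj A * fld φ * itr) ∧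
      ∀ i j : Fin 3, j ≠ Fin.rev i → (A : Matrix (Fin 3) (Fin 3) F) i j = 0 := by
  have : Fact (Nat.Prime 2) := ⟨Nat.prime_two⟩
  have : Fintype F := Fintype.ofFinite F
  obtain ⟨h01, h10⟩ := perm_two hσ
  rcases Cfsg.Agent.ClassicalGeometry.AutPSL.Main.surj_three 2 (le_refl 3) β with ⟨A, φ, hβ⟩ | ⟨A, φ, hβ⟩
  · exfalso
    have e1 := nrm_pos hN 0 1 h01 1
    have e2 := nrm_pos hN 1 0 h10 1
    rw [hβ] at e1 e2
    have f1 : RGDTypeA.pr 2 F (cj A (tv 0 1 1)) ∈ (XX F 1 2).map (RGDTypeA.pr 2 F) := by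
      have h1 : lift (cj A * fld φ) (RGDTypeA.pr 2 F (tv 0 1 1)) = RGDTypeA.pr 2 F (cj A (tv 0 1 1)) := by
        change RGDTypeA.pr 2 F (cj A (fld φ (tv 0 1 1))) = _
        rw [fld_tv φ (by decide), map_one]
      rw [← h1]
      exact e1
    have f2 : RGDTypeA.pr 2 F (cj A (tv 1 2 1)) ∈ (XX F 0 1).map (RGDTypeA.pr 2 F) := by
      have h1 : lift (cj A * fld φ) (RGDTypeA.pr 2 F (tv 1 2 1)) = RGDTypeA.pr 2 F (cj A (tv 1 2 1)) := by
        change RGDTypeA.pr 2 F (cj A (fld φ (tv 1 2 1))) = _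
        rw [fld_tv φ (by decide), map_one]
      rw [← h1]
      exact e2
    obtain ⟨-, g1⟩ := ent (by decide) (by decide) one_ne_zero f1
    obtain ⟨g2, -⟩ := ent (by decide) (by decide) one_ne_zero f2
    have h3 : (A : Matrix (Fin 3) (Fin 3) F).det = 0 := by
      refine Matrix.det_eq_zero_of_row_eq_zero 2 fun j => ?_
      fin_cases j
      · exact g1 0 (by decide)
      · exact g2 2 (by decide)
      · exact g1 2 (by decide)
    exact (GeneralLinearGroup.det A).ne_zero h3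
  · refine ⟨φ, A, hβ, ?_⟩
    have key : ∀ {a b c d : Fin 3}, a ≠ b → c ≠ d →
        β (RGDTypeA.pr 2 F (tv a b 1)) ∈ (XX F c d).map (RGDTypeA.pr 2 F) →
        (∀ i, i ≠ c → (A : Matrix (Fin 3) (Fin 3) F) i b = 0) ∧ ∀ j, j ≠ a → (A : Matrix (Fin 3) (Fin 3) F) d j = 0 := by
      intro a b c d hab hcd h
      refine ent hab.symm hcd one_ne_zero ?_
      have h1 : β (RGDTypeA.pr 2 F (tv a b 1)) = RGDTypeA.pr 2 F (cj A (tv b a 1)) := by
        rw [hβ]
        change RGDTypeA.pr 2 F (cj A (fld φ (itr (tv a b 1)))) = _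
        rw [itr_tv hab, fld_tv φ hab.symm, map_one]
      rw [← h1]
      exact h
    have g1 := key (by decide) (by decide) (nrm_pos hN 0 1 h01 1)
    have g2 := key (by decide) (by decide) (nrm_pos hN 1 0 h10 1)
    have g3 := key (by decide) (by decide) (nrm_neg hN 0 1 h01 1)
    intro i j hij
    fin_cases i <;> fin_cases j
    · exact g3.1 0 (by decide)
    · exact g1.1 0 (by decide)
    · exact absurd rfl hij
    · exact g3.1 1 (by decide)
    · exact absurd rfl hij
    · exact g2.1 1 (by decide)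
    · exact absurd rfl hij
    · exact g1.1 2 (by decide)
    · exact g2.1 2 (by decide)

open Cfsg.Agent.H507.K4.SizeA (dg dg_mem dg_center)

/-- the action on the diagonal matrices `diag (x, 1, x⁻¹)` -/
theorem shape_dg {φ : F ≃+* F} {A : GL (Fin 3) F} (hβ : β = lift (cj A * fld φ * itr))
    (hA : ∀ i j : Fin 3, j ≠ Fin.rev i → (A : Matrix (Fin 3) (Fin 3) F) i j = 0) (x : Fˣ) :
    β (RGDTypeA.pr 2 F (dg (x, 1))) = RGDTypeA.pr 2 F (dg (Units.map (φ : F →* F) x, 1)) := by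
  rw [hβ]
  change RGDTypeA.pr 2 F (cj A (fld φ (itr (dg (x, 1))))) = _
  congr 1
  apply toGL_injective (n := 2) (F := F)
  rw [toGL_cj, mul_inv_eq_iff_eq_mul]
  apply Units.ext
  have h1 : (fld φ (itr (dg (x, 1))) : SpecialLinearGroup (Fin 3) F).1 =
      Matrix.diagonal ![φ ((x⁻¹ : Fˣ) : F), 1, φ (x : F)] := by
    ext i j
    rw [coe_fld_apply]
    change φ (((dg (x, 1))⁻¹ : SpecialLinearGroup (Fin 3) F).1 j i) = _
    rw [← map_inv]
    change φ (Matrix.diagonal _ j i) = _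
    fin_cases i <;> fin_cases j <;> simp [Matrix.diagonal]
  change (A : Matrix (Fin 3) (Fin 3) F) * (fld φ (itr (dg (x, 1))) : SpecialLinearGroup (Fin 3) F).1 =
    (dg (Units.map (φ : F →* F) x, 1)).1 * (A : Matrix (Fin 3) (Fin 3) F)
  rw [h1]
  change _ = Matrix.diagonal ![((Units.map (φ : F →* F) x : Fˣ) : F), ((1 : Fˣ) : F),
    (((Units.map (φ : F →* F) x * 1)⁻¹ : Fˣ) : F)] * (A : Matrix (Fin 3) (Fin 3) F)
  rw [mul_one, ← map_inv]
  ext i j
  rw [Matrix.mul_diagonal, Matrix.diagonal_mul]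
  by_cases hij : j = Fin.rev i
  · subst hij
    fin_cases i
    · exact mul_comm _ _
    · exact mul_comm _ _
    · exact mul_comm _ _
  · rw [hA i j hij, zero_mul, mul_zero]

theorem pr_dg_inj {x y : Fˣ} (h : RGDTypeA.pr 2 F (dg (x, 1)) = RGDTypeA.pr 2 F (dg (y, 1))) : x = y := by
  have h1 : (dg (x, 1))⁻¹ * dg (y, 1) ∈ Subgroup.center (SpecialLinearGroup (Fin 3) F) := QuotientGroup.eq.1 h
  rw [← map_inv, ← map_mul] at h1
  have h2 := (dg_center h1).1
  change x⁻¹ * y = 1⁻¹ * 1 at h2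
  rw [inv_one, one_mul, inv_mul_eq_one] at h2
  exact h2

theorem shape_pow {φ : F ≃+* F} (hd : ∀ x : Fˣ, β (RGDTypeA.pr 2 F (dg (x, 1))) =
    RGDTypeA.pr 2 F (dg (Units.map (φ : F →* F) x, 1))) {m : ℕ} (hm : β ^ m = 1) (x : F) : φ^[m] x = x := by
  by_cases hx : x = 0
  · subst hx
    exact Function.iterate_fixed (map_zero φ) m
  have h1 : ∀ (j : ℕ) (x : Fˣ), (β ^ j) (RGDTypeA.pr 2 F (dg (x, 1))) =
      RGDTypeA.pr 2 F (dg ((Units.map (φ : F →* F))^[j] x, 1)) := by
    intro j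
    induction j with
    | zero => intro x; rfl
    | succ j ih =>
      intro x
      rw [pow_succ, MulAut.mul_apply, hd, ih, Function.iterate_succ_apply]
  have h2 := h1 m (Units.mk0 x hx)
  rw [hm, MulAut.one_apply] at h2
  have h3 := pr_dg_inj h2
  have h4 : ∀ (j : ℕ) (x : Fˣ), (((Units.map (φ : F →* F))^[j] x : Fˣ) : F) = φ^[j] (x : F) := by
    intro j
    induction j with
    | zero => intro x; rfl
    | succ j ih =>
      intro x
      rw [Function.iterate_succ_apply, Function.iterate_succ_apply, ih]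
      rfl
  have h5 := congrArg Units.val h3
  rw [h4] at h5
  exact h5.symm

end shape

end Cfsg.Agent.H71.QE
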