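import Cfsg.Agent.H71.QE.GLAut
import Cfsg.Agent.CharDeep.CliffordCorr
import Cfsg.Agent.CharactersDeep.CliffordSum
import Cfsg.Agent.H967.K4.Cusp

/-!
# S4547, task QE7 (helper71): the splitting of the series of the cubic character in `PSL_3(F)`

* `exists_Phi` : the character `Φ` of `PSL_3(F)` with `Φ (pr g) = RR ζ g`;
* `Phi_aut` : its invariance under graph-field automorphisms;
* `exists_ne` : a constituent of `Φ` is not invariant under `PGL_3(F)`;
* `val_zero` : its value at an element of prime order without conjugates in the Borel subgroup.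
-/

set_option autoImplicit false
set_option linter.unusedSectionVars false

open scoped ComplexConjugate

namespace Cfsg.Agent.H71.QE

open Cfsg Matrix CoxeterSystem Cfsg.Agent.ChevalleyStructure.CoxeterGeom Cfsg.Agent.Tits.Roots Cfsg.Agent.Tits.Core
open Cfsg.Agent.Nodes Cfsg.Agent.Nodes.BNOf Cfsg.Agent.Nodes.RGDLib Cfsg.Agent.Nodes.RootsA
  Cfsg.Agent.Nodes.Bruhat
open Cfsg.Agent.LieRecognition.BNCox (cA)
open Cfsg.Agent.Characters Cfsg.Agent.H726.Four Cfsg.Agent.H967.K4 Cfsg.Agent.OddOrderCharacters.Clifford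
open Cfsg.Agent.H183.OutPSL (fldGL itrGL)
open Cfsg.Agent.ClassicalGeometry.AutPSL.Root Cfsg.Agent.ClassicalGeometry.AutPSL.Auto
open Cfsg.Agent.H307.QE (OS)

universe u

section

variable {F : Type u} [Field F]

theorem toGL_cj (A : GL (Fin 3) F) (g : SpecialLinearGroup (Fin 3) F) :
    SpecialLinearGroup.toGL (cj A g) = A * SpecialLinearGroup.toGL g * A⁻¹ := Units.ext rfl

theorem toGL_fld (φ : F ≃+* F) (g : SpecialLinearGroup (Fin 3) F) :
    SpecialLinearGroup.toGL (fld φ g) = fldGL φ (SpecialLinearGroup.toGL g) := Units.ext rfl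

theorem toGL_itr (g : SpecialLinearGroup (Fin 3) F) :
    SpecialLinearGroup.toGL (itr g) = itrGL (SpecialLinearGroup.toGL g) := by
  apply Units.ext
  change ((g⁻¹ : SpecialLinearGroup (Fin 3) F) : Matrix (Fin 3) (Fin 3) F)ᵀ =
    (((SpecialLinearGroup.toGL g)⁻¹ : GL (Fin 3) F) : Matrix (Fin 3) (Fin 3) F)ᵀ
  rw [← map_inv]
  rfl

/-- scalar matrices are central -/
theorem dgl_scalar_comm (a : Fˣ) (x : GL (Fin 3) F) : dgl 2 F (fun _ => a) * x = x * dgl 2 F (fun _ => a) := by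
  apply Units.ext
  change Matrix.diagonal (fun _ => (a : F)) * (x : Matrix (Fin 3) (Fin 3) F) = _ * Matrix.diagonal (fun _ => (a : F))
  ext i j
  rw [Matrix.diagonal_mul, Matrix.mul_diagonal, mul_comm]

theorem exists_scalar {g g' : SpecialLinearGroup (Fin 3) F} (h : (pr g : ProjectiveSpecialLinearGroup (Fin 3) F) = pr g') :
    ∃ a : Fˣ, SpecialLinearGroup.toGL g' = dgl 2 F (fun _ => a) * SpecialLinearGroup.toGL g := by
  have h1 : g⁻¹ * g' ∈ Subgroup.center (SpecialLinearGroup (Fin 3) F) := QuotientGroup.eq.1 h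
  obtain ⟨r, hr, hr'⟩ := Matrix.SpecialLinearGroup.mem_center_iff.1 h1
  have hr0 : r ≠ 0 := by
    rintro rfl
    simp at hr
  refine ⟨Units.mk0 r hr0, ?_⟩
  have h2 : SpecialLinearGroup.toGL (g⁻¹ * g') = dgl 2 F (fun _ => Units.mk0 r hr0) := Units.ext hr'.symm
  rw [map_mul, map_inv, inv_mul_eq_iff_eq_mul] at h2
  rw [h2, dgl_scalar_comm]

variable [Finite F] [CharP F 2] [Fintype (GL (Fin 3) F)]

theorem exists_Phi (ζ : Fˣ →* ℂˣ) : ∃ Φ : ProjectiveSpecialLinearGroup (Fin 3) F → ℂ,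
    ∀ g : SpecialLinearGroup (Fin 3) F, Φ (pr g) = RR ζ (SpecialLinearGroup.toGL g) := by
  refine ⟨fun x => RR ζ (SpecialLinearGroup.toGL (Function.surjInv pr_surjective x)), fun g => ?_⟩
  have h1 : pr (Function.surjInv pr_surjective (pr g)) = (pr g : ProjectiveSpecialLinearGroup (Fin 3) F) :=
    Function.surjInv_eq pr_surjective (pr g)
  obtain ⟨a, ha⟩ := exists_scalar h1
  change RR ζ (SpecialLinearGroup.toGL _) = _
  rw [ha, RR_scalar]

variable {ζ : Fˣ →* ℂˣ} {Φ : ProjectiveSpecialLinearGroup (Fin 3) F → ℂ}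
  (hΦ : ∀ g : SpecialLinearGroup (Fin 3) F, Φ (pr g) = RR ζ (SpecialLinearGroup.toGL g))

include hΦ

theorem Phi_isCharacter : IsCharacter (ProjectiveSpecialLinearGroup (Fin 3) F) Φ := by
  refine H299.K4.Orb.isCharacter_of_comp pr pr_surjective ?_
  have h1 : Φ ∘ pr = RR ζ ∘ (SpecialLinearGroup.toGL (n := Fin 3) (R := F)) := funext hΦ
  rw [h1]
  exact Core.isCharacter_comp _ (RR_isCharacter ζ)

theorem Phi_one : Φ 1 = ((BG F).index : ℂ) := by
  have h1 := hΦ 1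
  rw [map_one, map_one, RR_one] at h1
  exact h1

theorem Phi_sf : SF Φ := by
  have : Finite (ProjectiveSpecialLinearGroup (Fin 3) F) := Quotient.finite _
  obtain ⟨k, hk⟩ := exists_cube (SpecialLinearGroup (Fin 3) F)
  have hk' := Cube.of_surjective (pr : SpecialLinearGroup (Fin 3) F →* ProjectiveSpecialLinearGroup (Fin 3) F)
    pr_surjective hk
  have h1 : SF (RR ζ ∘ (SpecialLinearGroup.toGL (n := Fin 3) (R := F))) := SF.comp _ (RR_sf ζ)
  refine SF.of_pow hk' fun x => ?_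
  obtain ⟨g, rfl⟩ := pr_surjective x
  rw [← map_pow, hΦ, hΦ]
  exact h1.apply_pow hk g

/-- invariance under graph-field automorphisms -/
theorem Phi_aut (φ : F ≃+* F)
    (hφ : (∀ x : Fˣ, ζ (Units.map (φ : F →* F) x) = ζ x) ∨ (∀ x : Fˣ, ζ (Units.map (φ : F →* F) x) = (ζ x)⁻¹))
    (A : GL (Fin 3) F) (x : ProjectiveSpecialLinearGroup (Fin 3) F) : Φ (lift (cj A * fld φ * itr) x) = Φ x := by
  obtain ⟨g, rfl⟩ := pr_surjective x
  rw [lift_pr, hΦ, hΦ, MulAut.mul_apply, MulAut.mul_apply, toGL_cj, toGL_fld, toGL_itr, RR_class,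
    ← RR_class ζ (PP F) (fldGL φ _)]
  exact RR_alp φ hφ _

end

section

variable {F : Type u} [Field F] [Finite F] [CharP F 2] [Fintype (GL (Fin 3) F)] {ζ : Fˣ →* ℂˣ}

theorem det_dgl (t : Fin 3 → Fˣ) : GeneralLinearGroup.det (dgl 2 F t) = ∏ i, t i := by
  apply Units.ext
  change (Matrix.diagonal fun i => (t i : F)).det = _
  rw [Matrix.det_diagonal, Units.coe_prod]

/-- `ζ ∘ det` -/
def epsZ (ζ : Fˣ →* ℂˣ) : GL (Fin 3) F →* ℂˣ := ζ.comp GeneralLinearGroup.det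

theorem epsZ_apply (g : GL (Fin 3) F) : epsZ ζ g = ζ (GeneralLinearGroup.det g) := rfl

theorem RR_off (hζ : ∀ x, ζ x ^ 3 = 1) (g : GL (Fin 3) F) (hg : g ∉ (epsZ ζ).ker) : RR ζ g = 0 := by
  have h1 := RR_eps hζ g
  by_contra h2
  apply hg
  rw [MonoidHom.mem_ker]
  have h3 : (ζ (GeneralLinearGroup.det g) : ℂ) = 1 := mul_left_cancel₀ h2 (by rw [h1, mul_one])
  exact Units.ext h3

theorem index_epsZ (hζ : ∀ x, ζ x ^ 3 = 1) {x₀ : Fˣ} (hx₀ : ζ x₀ ≠ 1) : (epsZ ζ).ker.index = 3 := by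
  rw [Subgroup.index_ker]
  have h1 : (epsZ ζ).range ≤ rootsOfUnity 3 ℂ := by
    rintro _ ⟨g, rfl⟩
    exact hζ _
  have h2 : Nat.card (rootsOfUnity 3 ℂ) = 3 := Complex.card_rootsOfUnity 3
  have h3 : Nat.card (epsZ ζ).range ∣ 3 := by
    have h4 := Subgroup.card_dvd_of_le h1
    rwa [h2] at h4
  rcases (Nat.dvd_prime Nat.prime_three).1 h3 with h4 | h4
  · exfalso
    rw [Subgroup.card_eq_one] at h4
    have h5 : epsZ ζ (dgl 2 F (Pi.mulSingle 0 x₀)) ∈ (epsZ ζ).range := ⟨_, rfl⟩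
    rw [h4, Subgroup.mem_bot] at h5
    apply hx₀
    have h6 : GeneralLinearGroup.det (dgl 2 F (Pi.mulSingle 0 x₀)) = x₀ := by
      rw [det_dgl, Fin.prod_univ_three]
      simp
    rw [← h6]
    exact h5
  · exact h4

theorem norm_epsZ (hζ : ∀ x, ζ x ^ 3 = 1) {x₀ : Fˣ} (hx₀ : ζ x₀ ≠ 1) [Fintype (epsZ ζ (F := F)).ker] :
    classInner (fun g : (epsZ ζ).ker => RR ζ g) (fun g : (epsZ ζ).ker => RR ζ g) = 3 := by
  have h1 := RR_inner hζ hx₀
  rw [Core.classInner_def, sum_eq_sum_subgroup (epsZ ζ).ker _ (fun g hg => by rw [RR_off hζ g hg, zero_mul])] at h1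
  rw [Core.classInner_def]
  have h2 := (epsZ ζ (F := F)).ker.card_mul_index
  rw [index_epsZ hζ hx₀] at h2
  have h3 : (Nat.card (GL (Fin 3) F) : ℂ) = Nat.card (epsZ ζ (F := F)).ker * 3 := by exact_mod_cast h2.symm
  rw [h3, mul_inv] at h1
  have h4 : (Nat.card (epsZ ζ (F := F)).ker : ℂ) ≠ 0 := Core.card_ne_zero_complex
  linear_combination 3 * h1

/-- scalars -/
noncomputable def scl : Fˣ →* GL (Fin 3) F := (dgl 2 F).comp (Pi.constMonoidHom (Fin 3) Fˣ)

theorem scl_apply (a : Fˣ) : scl a = dgl 2 F (fun _ => a) := rfl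

theorem scl_comm (a : Fˣ) (x : GL (Fin 3) F) : Commute (scl a) x := dgl_scalar_comm a x

theorem det_scl (a : Fˣ) : GeneralLinearGroup.det (scl a : GL (Fin 3) F) = a ^ 3 := by
  rw [scl_apply, det_dgl, Fin.prod_const]

/-- the parametrisation `SL_3 × Fˣ → GL_3` -/
noncomputable def parG : SpecialLinearGroup (Fin 3) F × Fˣ →* GL (Fin 3) F where
  toFun p := scl p.2 * SpecialLinearGroup.toGL p.1
  map_one' := by rw [Prod.snd_one, Prod.fst_one, map_one, map_one, one_mul]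
  map_mul' p p' := by
    rw [Prod.snd_mul, Prod.fst_mul, map_mul, map_mul]
    exact (scl_comm p'.2 (SpecialLinearGroup.toGL p.1)).mul_mul_mul_comm _ _

/-- the parametrisation `SL_3 × Fˣ → ker (ζ ∘ det)` -/
noncomputable def parZ (hζ : ∀ x, ζ x ^ 3 = 1) : SpecialLinearGroup (Fin 3) F × Fˣ →* (epsZ ζ (F := F)).ker :=
  parG.codRestrict (epsZ ζ (F := F)).ker (fun p => by
    rw [MonoidHom.mem_ker, epsZ_apply]
    change ζ (GeneralLinearGroup.det (scl p.2 * SpecialLinearGroup.toGL p.1)) = 1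
    rw [map_mul, det_scl, det_toGL, mul_one, map_pow, hζ])

theorem parZ_coe (hζ : ∀ x, ζ x ^ 3 = 1) (p : SpecialLinearGroup (Fin 3) F × Fˣ) :
    ((parZ hζ p : (epsZ ζ (F := F)).ker) : GL (Fin 3) F) = dgl 2 F (fun _ => p.2) * SpecialLinearGroup.toGL p.1 := rfl

theorem parZ_surjective (hζ : ∀ x, ζ x ^ 3 = 1) {x₀ : Fˣ} (hx₀ : ζ x₀ ≠ 1) :
    Function.Surjective (parZ hζ (F := F)) := by
  rintro ⟨g, hg⟩
  rw [MonoidHom.mem_ker, epsZ_apply] at hg
  obtain ⟨y, hy⟩ := IsCyclic.exists_generator (α := Fˣ)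
  obtain ⟨m, hm⟩ := Subgroup.mem_zpowers_iff.1 (hy (GeneralLinearGroup.det g))
  have hy1 : ζ y ≠ 1 := by
    intro h1
    apply hx₀
    obtain ⟨j, rfl⟩ := Subgroup.mem_zpowers_iff.1 (hy x₀)
    rw [map_zpow, h1, _root_.one_zpow]
  have ho : orderOf (ζ y) = 3 := orderOf_eq_prime (hζ y) hy1
  rw [← hm, map_zpow] at hg
  have h3 := orderOf_dvd_iff_zpow_eq_one.2 hg
  rw [ho] at h3
  obtain ⟨j, hj⟩ := h3
  have hdet : GeneralLinearGroup.det g = (y ^ j) ^ 3 := by
    rw [← hm, hj, ← zpow_natCast, ← _root_.zpow_mul, mul_comm]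
  have hdet2 : GeneralLinearGroup.det ((dgl 2 F (fun _ => y ^ j))⁻¹ * g) = 1 := by
    rw [map_mul, map_inv, det_dgl, Fin.prod_const, hdet, inv_mul_cancel]
  let s : SpecialLinearGroup (Fin 3) F := ⟨((dgl 2 F (fun _ => y ^ j))⁻¹ * g : GL (Fin 3) F), congrArg Units.val hdet2⟩
  have h1 : SpecialLinearGroup.toGL s = (dgl 2 F (fun _ => y ^ j))⁻¹ * g := Units.ext rfl
  refine ⟨(s, y ^ j), ?_⟩
  apply Subtype.ext
  rw [parZ_coe, h1, mul_inv_cancel_left]

variable {Φ : ProjectiveSpecialLinearGroup (Fin 3) F → ℂ}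
  (hΦ : ∀ g : SpecialLinearGroup (Fin 3) F, Φ (pr g) = RR ζ (SpecialLinearGroup.toGL g))

/-- if `RR ζ` is a multiple of an irreducible character on `SL_3`, then `3` is a square -/
theorem no_multiple (hζ : ∀ x, ζ x ^ 3 = 1) {x₀ : Fˣ} (hx₀ : ζ x₀ ≠ 1)
    [Fintype (ProjectiveSpecialLinearGroup (Fin 3) F)] {χ : ProjectiveSpecialLinearGroup (Fin 3) F → ℂ}
    (hχ : IsIrrCharacter _ χ) (c : ℕ)
    (hval : ∀ s : SpecialLinearGroup (Fin 3) F, RR ζ (SpecialLinearGroup.toGL s) = (c : ℂ) * χ (pr s)) : False := by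
  classical
  have := Fintype.ofFinite (SpecialLinearGroup (Fin 3) F)
  have : Fintype Fˣ := Fintype.ofFinite _
  have : Fintype (epsZ ζ (F := F)).ker := Fintype.ofFinite _
  have h5 := H693.Defl.classInner_comp_surj (parZ hζ) (parZ_surjective hζ hx₀)
    (fun g : (epsZ ζ (F := F)).ker => RR ζ g) (fun g : (epsZ ζ (F := F)).ker => RR ζ g)
  rw [norm_epsZ hζ hx₀] at h5
  have h6 : (fun p => (fun g : (epsZ ζ (F := F)).ker => RR ζ g) (parZ hζ p)) =
      fun p : SpecialLinearGroup (Fin 3) F × Fˣ =>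
      ((c : ℂ) • χ) ((pr.comp (MonoidHom.fst (SpecialLinearGroup (Fin 3) F) Fˣ)) p) := by
    funext p
    change RR ζ (dgl 2 F (fun _ => p.2) * SpecialLinearGroup.toGL p.1) = (c : ℂ) * χ (pr p.1)
    rw [RR_scalar, hval]
  have hsur : Function.Surjective (pr.comp (MonoidHom.fst (SpecialLinearGroup (Fin 3) F) Fˣ)) := by
    intro x
    obtain ⟨g, rfl⟩ := pr_surjective x
    exact ⟨(g, 1), rfl⟩
  rw [h6, H693.Defl.classInner_comp_surj _ hsur, Core.classInner_smul_left, Core.classInner_smul_right,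
    Core.classInner_irr_self hχ, Complex.conj_natCast, mul_one] at h5
  have h7 : c * c = 3 := by exact_mod_cast h5
  have h8 : c ≤ 1 ∨ 2 ≤ c := by omega
  rcases h8 with h8 | h8
  · nlinarith
  · nlinarith

include hΦ

/-- **An invariant constituent.** -/
theorem exists_ne (hζ : ∀ x, ζ x ^ 3 = 1) {x₀ : Fˣ} (hx₀ : ζ x₀ ≠ 1)
    [Fintype (ProjectiveSpecialLinearGroup (Fin 3) F)] {χ : ProjectiveSpecialLinearGroup (Fin 3) F → ℂ}
    (hχ : IsIrrCharacter _ χ) (hne : classInner Φ χ ≠ 0) :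
    ∃ (E : GL (Fin 3) F) (x : ProjectiveSpecialLinearGroup (Fin 3) F), χ (lift (cj E) x) ≠ χ x := by
  classical
  by_contra hcon
  push Not at hcon
  have := Fintype.ofFinite (SpecialLinearGroup (Fin 3) F)
  let N : Subgroup (GL (Fin 3) F) := (SpecialLinearGroup.toGL (n := Fin 3) (R := F)).range
  have hN : N.Normal := by
    constructor
    rintro _ ⟨s, rfl⟩ g
    exact ⟨cj g s, toGL_cj g s⟩
  have : Fintype N := Fintype.ofFinite _
  let e : SpecialLinearGroup (Fin 3) F ≃* N := MonoidHom.ofInjective (toGL_injective (n := 2) (F := F))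
  have he : ∀ s, ((e s : N) : GL (Fin 3) F) = SpecialLinearGroup.toGL s := fun s => rfl
  let pe : N →* ProjectiveSpecialLinearGroup (Fin 3) F := pr.comp e.symm.toMonoidHom
  have hpe : ∀ s, pe (e s) = pr s := by
    intro s
    change pr (e.symm (e s)) = _
    rw [e.symm_apply_apply]
  have hpes : Function.Surjective pe := by
    intro x
    obtain ⟨g, rfl⟩ := pr_surjective x
    exact ⟨e g, hpe g⟩
  have hχN : IsIrrCharacter N (χ ∘ pe) := Core.isIrr_comp pe hpes hχ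
  have hχe : ∀ s, (χ ∘ pe) (e s) = χ (pr s) := fun s => congrArg χ (hpe s)
  have hinv : ∀ g : GL (Fin 3) F, (χ ∘ pe) ∘ (MulAut.conjNormal g : MulAut N) = χ ∘ pe := by
    intro g
    funext n
    obtain ⟨s, rfl⟩ := e.surjective n
    have h1 : (MulAut.conjNormal g : MulAut N) (e s) = e (cj g s) := by
      apply Subtype.ext
      rw [MulAut.conjNormal_apply, he, he, toGL_cj]
    have h2 : ((χ ∘ pe) ∘ (MulAut.conjNormal g : MulAut N)) (e s) = (χ ∘ pe) (e (cj g s)) := congrArg (χ ∘ pe) h1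
    rw [h2, hχe, hχe, ← lift_pr, hcon]
  have hin : classInner (fun n : N => RR ζ n) (χ ∘ pe) = classInner Φ χ := by
    rw [← H693.Defl.classInner_comp_surj (pr : SpecialLinearGroup (Fin 3) F →* _) pr_surjective Φ χ,
      ← H693.Defl.classInner_comp_surj e.toMonoidHom e.surjective (fun n : N => RR ζ n) (χ ∘ pe)]
    congr 1
    · funext s
      exact (hΦ s).symm
    · funext s
      exact hχe s
  have hirr := RR_isIrr hζ hx₀
  have hres := CharDeep.CliffordCorr.restrict_eq_smul_of_invariant N hirr hχN hinv (by rw [hin]; exact hne)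
  obtain ⟨c, hc⟩ := Core.classInner_isNat (Phi_isCharacter hΦ) (Core.isIrr_isCharacter hχ)
  rw [hin, hc] at hres
  refine no_multiple hζ hx₀ hχ c fun s => ?_
  have h1 := congrFun hres (e s)
  rw [Pi.smul_apply, hχe, smul_eq_mul] at h1
  exact h1

end

end Cfsg.Agent.H71.QE
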