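import Cfsg.Agent.H71.QE.Split

/-!
# S4547, task QE7 (helper71): values of the constituents of the cubic series of `PSL_3(F)`

* `val_zero` : a constituent `χ` of `Φ` vanishes at `pr s` if `RR ζ` vanishes at `s` and the `GL_3`-class of `s` is a
  `SL_3`-class.
-/

set_option autoImplicit false
set_option linter.unusedSectionVars false

open scoped ComplexConjugate

namespace Cfsg.Agent.H71.QE

open Cfsg Matrix CoxeterSystem Cfsg.Agent.ChevalleyStructure.CoxeterGeom Cfsg.Agent.Tits.Roots Cfsg.Agent.Tits.Core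
open Cfsg.Agent.Nodes Cfsg.Agent.Nodes.BNOf Cfsg.Agent.Nodes.RGDLib Cfsg.Agent.Nodes.RootsA
  Cfsg.Agent.Nodes.Bruhat
open Cfsg.Agent.LieRecognition.BNCox (cA)
open Cfsg.Agent.Characters Cfsg.Agent.H726.Four Cfsg.Agent.H967.K4 Cfsg.Agent.OddOrderCharacters.Clifford
open Cfsg.Agent.H183.OutPSL (fldGL itrGL)
open Cfsg.Agent.ClassicalGeometry.AutPSL.Root Cfsg.Agent.ClassicalGeometry.AutPSL.Auto
open Cfsg.Agent.H307.QE (OS)

universe u

variable {F : Type u} [Field F] [Finite F] [CharP F 2] [Fintype (GL (Fin 3) F)] {ζ : Fˣ →* ℂˣ}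
  {Φ : ProjectiveSpecialLinearGroup (Fin 3) F → ℂ}
  (hΦ : ∀ g : SpecialLinearGroup (Fin 3) F, Φ (pr g) = RR ζ (SpecialLinearGroup.toGL g))

include hΦ

theorem val_zero (hζ : ∀ x, ζ x ^ 3 = 1) {x₀ : Fˣ} (hx₀ : ζ x₀ ≠ 1)
    [Fintype (ProjectiveSpecialLinearGroup (Fin 3) F)] {χ : ProjectiveSpecialLinearGroup (Fin 3) F → ℂ}
    (hχ : IsIrrCharacter _ χ) (hne : classInner Φ χ ≠ 0) {s : SpecialLinearGroup (Fin 3) F}
    (hs : ∀ g : GL (Fin 3) F, ∃ k : SpecialLinearGroup (Fin 3) F, cj g s = k * s * k⁻¹)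
    (h0 : RR ζ (SpecialLinearGroup.toGL s) = 0) : χ (pr s) = 0 := by
  classical
  have := Fintype.ofFinite (SpecialLinearGroup (Fin 3) F)
  let N : Subgroup (GL (Fin 3) F) := (SpecialLinearGroup.toGL (n := Fin 3) (R := F)).range
  have hN : N.Normal := by
    constructor
    rintro _ ⟨s, rfl⟩ g
    exact ⟨cj g s, toGL_cj g s⟩
  have : Fintype N := Fintype.ofFinite _
  let e : SpecialLinearGroup (Fin 3) F ≃* N := MonoidHom.ofInjective (toGL_injective (n := 2) (F := F))
  have he : ∀ s, ((e s : N) : GL (Fin 3) F) = SpecialLinearGroup.toGL s := fun s => rfl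
  let pe : N →* ProjectiveSpecialLinearGroup (Fin 3) F := pr.comp e.symm.toMonoidHom
  have hpe : ∀ s, pe (e s) = pr s := by
    intro s
    change pr (e.symm (e s)) = _
    rw [e.symm_apply_apply]
  have hpes : Function.Surjective pe := by
    intro x
    obtain ⟨g, rfl⟩ := pr_surjective x
    exact ⟨e g, hpe g⟩
  have hχN : IsIrrCharacter N (χ ∘ pe) := Core.isIrr_comp pe hpes hχ
  have hχe : ∀ s, (χ ∘ pe) (e s) = χ (pr s) := fun s => congrArg χ (hpe s)
  have hinv : ∀ g : GL (Fin 3) F, ((χ ∘ pe) ∘ (MulAut.conjNormal g : MulAut N)) (e s) = χ (pr s) := by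
    intro g
    have h1 : (MulAut.conjNormal g : MulAut N) (e s) = e (cj g s) := by
      apply Subtype.ext
      rw [MulAut.conjNormal_apply, he, he, toGL_cj]
    have h2 : ((χ ∘ pe) ∘ (MulAut.conjNormal g : MulAut N)) (e s) = (χ ∘ pe) (e (cj g s)) := congrArg (χ ∘ pe) h1
    obtain ⟨k, hk⟩ := hs g
    rw [h2, hχe, hk, map_mul, map_mul, map_inv]
    exact Core.isIrr_isClassFunction hχ _ _
  have hin : classInner (fun n : N => RR ζ n) (χ ∘ pe) = classInner Φ χ := by
    rw [← H693.Defl.classInner_comp_surj (pr : SpecialLinearGroup (Fin 3) F →* _) pr_surjective Φ χ,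
      ← H693.Defl.classInner_comp_surj e.toMonoidHom e.surjective (fun n : N => RR ζ n) (χ ∘ pe)]
    congr 1
    · funext s
      exact (hΦ s).symm
    · funext s
      exact hχe s
  have hirr := RR_isIrr hζ hx₀
  have hne' : classInner (fun n : N => RR ζ n) (χ ∘ pe) ≠ 0 := by rw [hin]; exact hne
  have hres := CharactersDeep.CliffordSum.restrict_eq_smul_sum N hirr hχN hne'
  have h1 := congrFun hres (e s)
  rw [Pi.smul_apply, Finset.sum_apply, Finset.sum_congr rfl (g := fun _ => χ (pr s))] at h1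
  · have h2 : RR ζ ((e s : N) : GL (Fin 3) F) = 0 := h0
    rw [h2, Finset.sum_const, nsmul_eq_mul, smul_eq_mul] at h1
    have h3 := h1.symm
    rcases mul_eq_zero.1 h3 with h4 | h4
    · exact absurd h4 hne'
    rcases mul_eq_zero.1 h4 with h5 | h5
    · exfalso
      rw [Nat.cast_eq_zero, Finset.card_eq_zero, Finset.image_eq_empty] at h5
      exact Finset.univ_nonempty.ne_empty h5
    · exact h5
  · intro ψ hψ
    obtain ⟨g, -, rfl⟩ := Finset.mem_image.1 hψ
    exact hinv g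

end Cfsg.Agent.H71.QE
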